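import Mathlib

set_option autoImplicit false
open scoped Pointwise commutatorElement

/-! Finite groups with an abelian maximal subgroup: the third derived subgroup is trivial. -/

namespace H74.AbelianMax

open Subgroup

variable {G : Type*} [Group G]

theorem comm_of_mem {M : Subgroup G} (hab : IsMulCommutative M) {x y : G} (hx : x ∈ M) (hy : y ∈ M) :
    x * y = y * x :=
  congrArg Subtype.val (hab.is_comm.comm ⟨x, hx⟩ ⟨y, hy⟩)

theorem centralizer_eq (M : Subgroup G) (hM : IsCoatom M) (hab : IsMulCommutative M)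
    (hcore : M.normalCore = ⊥) {x : G} (hx : x ∈ M) (hx1 : x ≠ 1) :
    centralizer ({x} : Set G) = M := by
  have h1 : M ≤ centralizer ({x} : Set G) := by
    intro y hy
    rw [mem_centralizer_singleton_iff]
    exact comm_of_mem hab hy hx
  rcases hM.le_iff.mp h1 with h2 | h2
  · exfalso
    have hxc : x ∈ center G := by
      rw [mem_center_iff]
      intro g
      have hg : g ∈ centralizer ({x} : Set G) := h2 ▸ mem_top g
      rw [mem_centralizer_singleton_iff] at hg
      exact hg
    have h3 : x ∈ M.normalCore := by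
      intro g
      have := mem_center_iff.mp hxc g
      rw [this, mul_inv_cancel_right]
      exact hx
    rw [hcore, mem_bot] at h3
    exact hx1 h3
  · exact h2

theorem normalizer_eq_self (M : Subgroup G) (hM : IsCoatom M) (hcore : M.normalCore = ⊥) (hne : M ≠ ⊥) :
    normalizer (M : Set G) = M := by
  rcases hM.le_iff.mp (le_normalizer (H := M)) with h | h
  · exfalso
    have hn : M.Normal := normalizer_eq_top_iff.mp h
    have := Subgroup.normalCore_eq_self M
    rw [hcore] at this
    exact hne this.symm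
  · exact h

/-- conjugating into `M` forces `g ∈ M` -/
theorem mem_of_conj_mem (M : Subgroup G) (hM : IsCoatom M) (hab : IsMulCommutative M)
    (hcore : M.normalCore = ⊥) {x g : G} (hx : x ∈ M) (hx1 : x ≠ 1) (hgx : g * x * g⁻¹ ∈ M) : g ∈ M := by
  have hne : M ≠ ⊥ := fun h => hx1 (by rw [h, mem_bot] at hx; exact hx)
  rw [← normalizer_eq_self M hM hcore hne]
  have hgx1 : g * x * g⁻¹ ≠ 1 := by
    intro h
    apply hx1
    have : x = g⁻¹ * (g * x * g⁻¹) * g := by group
    rw [this, h]; group
  have e1 := centralizer_eq M hM hab hcore hx hx1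
  have e2 := centralizer_eq M hM hab hcore hgx hgx1
  rw [mem_normalizer_iff]
  intro h
  conv_lhs => rw [← e1]
  conv_rhs => rw [← e2]
  rw [mem_centralizer_singleton_iff, mem_centralizer_singleton_iff]
  constructor
  · intro hh
    calc g * h * g⁻¹ * (g * x * g⁻¹) = g * (h * x) * g⁻¹ := by group
      _ = g * (x * h) * g⁻¹ := by rw [hh]
      _ = g * x * g⁻¹ * (g * h * g⁻¹) := by group
  · intro hh
    calc h * x = g⁻¹ * (g * h * g⁻¹ * (g * x * g⁻¹)) * g := by group
      _ = g⁻¹ * (g * x * g⁻¹ * (g * h * g⁻¹)) * g := by rw [hh]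
      _ = x * h := by group

variable [Finite G]

/-- Sylow subgroups meeting `M` nontrivially lie in `M`. -/
theorem sylow_le (M : Subgroup G) (hM : IsCoatom M) (hab : IsMulCommutative M)
    (hcore : M.normalCore = ⊥) {p : ℕ} [Fact p.Prime] (P : Sylow p G) {x : G} (hxP : x ∈ P) (hx : x ∈ M) (hx1 : x ≠ 1) :
    (P : Subgroup G) ≤ M := by
  have : Nontrivial P := ⟨⟨⟨x, hxP⟩, 1, fun h => hx1 (congrArg Subtype.val h)⟩⟩
  have := P.isPGroup'.center_nontrivial
  obtain ⟨⟨z, hz⟩, hz1⟩ := exists_ne (1 : center P)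
  have hz1' : (z : G) ≠ 1 := by
    intro h
    apply hz1
    ext
    exact h
  have hzc := fun (g : P) => congrArg Subtype.val (mem_center_iff.mp hz g)
  have hzM : (z : G) ∈ M := by
    rw [← centralizer_eq M hM hab hcore hx hx1, mem_centralizer_singleton_iff]
    exact (hzc ⟨x, hxP⟩).symm
  rw [← centralizer_eq M hM hab hcore hzM hz1']
  intro y hy
  rw [mem_centralizer_singleton_iff]
  exact hzc ⟨y, hy⟩

omit [Finite G] in
theorem normalizer_sylow_le (M : Subgroup G) (hM : IsCoatom M) (hab : IsMulCommutative M)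
    (hcore : M.normalCore = ⊥) {p : ℕ} [Fact p.Prime] (P : Sylow p G) (hP : (P : Subgroup G) ≤ M)
    (hP1 : (P : Subgroup G) ≠ ⊥) : normalizer (P : Set G) ≤ M := by
  obtain ⟨x, hx, hx1⟩ := (Subgroup.ne_bot_iff_exists_ne_one).mp hP1 |> fun ⟨⟨x, hx⟩, h⟩ =>
    (⟨x, hx, fun h' => h (Subtype.ext h')⟩ : ∃ x : G, x ∈ (P : Subgroup G) ∧ x ≠ 1)
  intro g hg
  exact mem_of_conj_mem M hM hab hcore (hP hx) hx1 (hP ((mem_normalizer_iff.mp hg x).mp hx))

theorem exists_sylow_le (M : Subgroup G) (hM : IsCoatom M) (hab : IsMulCommutative M)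
    (hcore : M.normalCore = ⊥) {p : ℕ} [Fact p.Prime] (hp : p ∣ Nat.card M) :
    ∃ P : Sylow p G, (P : Subgroup G) ≤ M ∧ (P : Subgroup G) ≠ ⊥ := by
  obtain ⟨x, hx⟩ := exists_prime_orderOf_dvd_card' p hp
  have hxp : IsPGroup p (zpowers (x : G)) := by
    apply IsPGroup.of_card (n := 1)
    rw [Nat.card_zpowers, orderOf_coe, hx, pow_one]
  obtain ⟨P, hP⟩ := hxp.exists_le_sylow
  have hxP : (x : G) ∈ P := hP (mem_zpowers _)
  have hx1 : (x : G) ≠ 1 := by
    intro h
    have : orderOf (x : G) = 1 := by rw [h, orderOf_one]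
    rw [orderOf_coe, hx] at this
    exact (Fact.out : p.Prime).one_lt.ne' this
  refine ⟨P, sylow_le M hM hab hcore P hxP x.2 hx1, ?_⟩
  intro h
  have hxP' : (x : G) ∈ (P : Subgroup G) := hxP
  rw [h, mem_bot] at hxP'
  exact hx1 hxP'

omit [Finite G] in
theorem normal_of_commutator_le {L : Subgroup G} (h : commutator G ≤ L) : L.Normal := by
  constructor
  intro n hn g
  have h1 : ⁅g, n⁆ ∈ commutator G := commutator_mem_commutator (mem_top g) (mem_top n)
  have h2 : g * n * g⁻¹ = ⁅g, n⁆ * n := by rw [commutatorElement_def]; group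
  rw [h2]
  exact L.mul_mem (h h1) hn

omit [Finite G] in
theorem commutator_le_of_comm {M V : Subgroup G} [V.Normal] (hab : IsMulCommutative M) (h : V ⊔ M = ⊤) :
    commutator G ≤ V := by
  rw [commutator_def, commutator_le]
  intro a _ b _
  rw [← QuotientGroup.eq_one_iff]
  change QuotientGroup.mk' V ⁅a, b⁆ = 1
  rw [map_commutatorElement]
  have key : ∀ g : G, ∃ m ∈ M, QuotientGroup.mk' V g = QuotientGroup.mk' V m := by
    intro g
    have hg : g ∈ V ⊔ M := h ▸ mem_top g
    rw [← SetLike.mem_coe, normal_mul, Set.mem_mul] at hg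
    obtain ⟨v, hv, m, hm, rfl⟩ := hg
    refine ⟨m, hm, ?_⟩
    rw [map_mul, (QuotientGroup.eq_one_iff (N := V) v).mpr hv |> fun h => (h : QuotientGroup.mk' V v = 1), one_mul]
  obtain ⟨m, hm, e1⟩ := key a
  obtain ⟨n, hn, e2⟩ := key b
  rw [e1, e2, commutatorElement_eq_one_iff_mul_comm, ← map_mul, ← map_mul, comm_of_mem hab hm hn]

theorem relIndex_sup_normal (H F : Subgroup G) [F.Normal] : H.relIndex (H ⊔ F) = H.relIndex F := by
  have h1 : F.relIndex (H ⊔ F) = F.relIndex H := Subgroup.relIndex_sup_right _ _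
  have h2 : (H ⊓ F).relIndex H * H.relIndex (H ⊔ F) = (H ⊓ F).relIndex (H ⊔ F) :=
    Subgroup.relIndex_mul_relIndex _ _ _ inf_le_left le_sup_left
  have h3 : (H ⊓ F).relIndex F * F.relIndex (H ⊔ F) = (H ⊓ F).relIndex (H ⊔ F) :=
    Subgroup.relIndex_mul_relIndex _ _ _ inf_le_right le_sup_right
  rw [Subgroup.inf_relIndex_left] at h2
  rw [Subgroup.inf_relIndex_right, h1, ← h2, mul_comm] at h3
  have h4 : F.relIndex H ≠ 0 := Subgroup.index_ne_zero_of_finite
  exact (Nat.eq_of_mul_eq_mul_left (Nat.pos_of_ne_zero h4) h3).symm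

theorem coprime_commutator (M : Subgroup G) (hM : IsCoatom M) (hab : IsMulCommutative M)
    (hcore : M.normalCore = ⊥) : (Nat.card (commutator G)).Coprime (Nat.card M) := by
  apply Nat.Coprime.symm
  apply Nat.coprime_of_dvd
  intro p hp hpM
  have : Fact p.Prime := ⟨hp⟩
  obtain ⟨P, hPM, hP1⟩ := exists_sylow_le M hM hab hcore hpM
  have hN := normalizer_sylow_le M hM hab hcore P hPM hP1
  have hNC : normalizer (P : Set G) ≤ centralizer (P : Set G) := by
    intro g hg
    rw [mem_centralizer_iff]
    intro x hx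
    exact comm_of_mem hab (hPM hx) (hN hg)
  have hK := MonoidHom.not_dvd_card_ker_transferSylow P hNC
  intro hd
  apply hK
  refine hd.trans (card_dvd_of_le ?_)
  rw [commutator_def, commutator_le]
  intro a _ b _
  rw [MonoidHom.mem_ker, map_commutatorElement, commutatorElement_eq_one_iff_mul_comm]
  have hPab : IsMulCommutative P :=
    ⟨⟨fun a b => Subtype.ext (comm_of_mem hab (hPM a.2) (hPM b.2))⟩⟩
  exact hPab.is_comm.comm _ _

theorem exists_normal_abelian (M : Subgroup G) (hM : IsCoatom M) (hab : IsMulCommutative M)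
    (hcore : M.normalCore = ⊥) : ∃ V : Subgroup G, V.Normal ∧ IsMulCommutative V ∧ V ⊔ M = ⊤ := by
  rcases eq_or_ne M ⊥ with hMb | hMb
  · refine ⟨⊤, inferInstance, ⟨⟨?_⟩⟩, by simp⟩
    rintro ⟨x, -⟩ ⟨y, -⟩
    ext
    show x * y = y * x
    rcases eq_or_ne x 1 with rfl | hx
    · simp
    · have h1 : zpowers x = ⊤ := by
        apply hM.2
        rw [hMb, bot_lt_iff_ne_bot]
        exact fun h => hx (zpowers_eq_bot.mp h)
      have hy : y ∈ zpowers x := h1 ▸ mem_top y
      obtain ⟨k, rfl⟩ := mem_zpowers_iff.mp hy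
      rw [← zpow_one_add, ← zpow_add_one, add_comm]
  · have hcop := coprime_commutator M hM hab hcore
    set K := commutator G with hK
    have hdisj : M ⊓ K = ⊥ := disjoint_iff.mp (Subgroup.disjoint_of_coprime_natCard hcop.symm)
    have hKne : K ≠ ⊥ := by
      intro h
      have hMn : M.Normal := normal_of_commutator_le (by rw [← hK, h]; exact bot_le)
      have := Subgroup.normalCore_eq_self M
      rw [hcore] at this
      exact hMb this.symm
    have hM1 : Nat.card M ≠ 1 := fun h => hMb (Subgroup.card_eq_one.mp h)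
    have hK1 : Nat.card K ≠ 1 := fun h => hKne (Subgroup.card_eq_one.mp h)
    obtain ⟨p, hp, hpM⟩ := Nat.exists_prime_and_dvd hM1
    obtain ⟨q, hq, hqK⟩ := Nat.exists_prime_and_dvd hK1
    have : Fact p.Prime := ⟨hp⟩
    have : Fact q.Prime := ⟨hq⟩
    obtain ⟨P, hPM, hP1⟩ := exists_sylow_le M hM hab hcore hpM
    have hNP := normalizer_sylow_le M hM hab hcore P hPM hP1
    -- a Sylow q-subgroup of K normalized by a Sylow p-subgroup of G
    have Q0 : Sylow q K := Classical.arbitrary _
    have hF0 := Sylow.normalizer_sup_eq_top Q0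
    set N0 := normalizer ((Q0 : Subgroup K).map K.subtype : Set G) with hN0
    have hidx : ¬ p ∣ N0.index := by
      have h1 : N0.index = N0.relIndex K := by
        rw [← relIndex_sup_normal, hF0, relIndex_top_right]
      rw [h1]
      intro h2
      have h3 := h2.trans (relIndex_dvd_card N0 K)
      exact (Nat.Prime.not_coprime_iff_dvd.mpr ⟨p, hp, h3, hpM⟩) hcop
    obtain ⟨P', hP'⟩ : ∃ P' : Sylow p G, (P' : Subgroup G) ≤ N0 := by
      have R : Sylow p N0 := Classical.arbitrary _
      have hRp : IsPGroup p ((R : Subgroup N0).map N0.subtype) := R.isPGroup'.map _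
      have hRi : ¬ p ∣ ((R : Subgroup N0).map N0.subtype).index := by
        rw [Subgroup.index_map_subtype]
        intro h
        rcases (hp.dvd_mul).mp h with h | h
        · exact R.not_dvd_index h
        · exact hidx h
      refine ⟨hRp.toSylow hRi, ?_⟩
      rw [IsPGroup.toSylow_coe]
      exact map_subtype_le _
    obtain ⟨g, hg⟩ := MulAction.exists_smul_eq G P' P
    let Q : Sylow q K := (MulAut.conjNormal g : MulAut K) • Q0
    set Q2 := (Q : Subgroup K).map K.subtype with hQ2def
    have hmem : ∀ z : G, z ∈ Q2 ↔ g⁻¹ * z * g ∈ (Q0 : Subgroup K).map K.subtype := by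
      intro z
      constructor
      · rintro ⟨y, hy, rfl⟩
        have hy2 : y ∈ (MulAut.conjNormal g : MulAut K) • (Q0 : Subgroup K) := hy
        rw [mem_pointwise_smul_iff_inv_smul_mem] at hy2
        refine ⟨_, hy2, ?_⟩
        rw [MulAut.smul_def, coe_subtype, ← map_inv, MulAut.conjNormal_apply]
        simp
      · rintro ⟨y, hy, hyz⟩
        refine ⟨MulAut.conjNormal g y, ?_, ?_⟩
        · show _ ∈ (MulAut.conjNormal g : MulAut K) • (Q0 : Subgroup K)
          rw [← MulAut.smul_def]
          exact Subgroup.smul_mem_pointwise_smul _ _ _ hy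
        · rw [coe_subtype] at hyz ⊢
          rw [MulAut.conjNormal_apply, hyz]
          group
    have hF := Sylow.normalizer_sup_eq_top Q
    rw [← hQ2def] at hF
    set N := normalizer (Q2 : Set G) with hN
    have hPN : (P : Subgroup G) ≤ N := by
      intro x hx
      rw [← hg] at hx
      have hx2 : x ∈ MulAut.conj g • (P' : Subgroup G) := hx
      rw [mem_pointwise_smul_iff_inv_smul_mem] at hx2
      have hx3 : g⁻¹ * x * g ∈ N0 := by
        apply hP'
        simpa using hx2
      rw [hN, mem_normalizer_iff]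
      intro z
      rw [hmem, hmem]
      have h1 := mem_normalizer_iff.mp hx3 (g⁻¹ * z * g)
      rw [h1]
      have h2 : g⁻¹ * x * g * (g⁻¹ * z * g) * (g⁻¹ * x * g)⁻¹ = g⁻¹ * (x * z * x⁻¹) * g := by group
      rw [h2]
    -- Frattini inside N
    have hfrat : ∀ n ∈ N, ∃ a ∈ N ⊓ M, ∃ b ∈ K, n = a * b := by
      let L : Subgroup N := (P.subtype hPN : Subgroup N) ⊔ commutator N
      have hLn : L.Normal := normal_of_commutator_le le_sup_right
      have h1 := Sylow.normalizer_sup_eq_top' (P.subtype hPN) (N := L) le_sup_left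
      have h2 : normalizer ((P.subtype hPN : Subgroup N) : Set N) ⊔ commutator N = ⊤ := by
        rw [← top_le_iff, ← h1]
        refine sup_le le_sup_left (sup_le ?_ le_sup_right)
        exact le_normalizer.trans le_sup_left
      intro n hn
      have h3 : (⟨n, hn⟩ : N) ∈ normalizer ((P.subtype hPN : Subgroup N) : Set N) ⊔ commutator N :=
        h2 ▸ mem_top _
      rw [← SetLike.mem_coe, mul_normal, Set.mem_mul] at h3
      obtain ⟨a, ha, b, hb, hab'⟩ := h3
      refine ⟨(a : G), ⟨a.2, ?_⟩, (b : G), ?_, ?_⟩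
      · apply hNP
        show (a : G) ∈ normalizer ((P : Subgroup G) : Set G)
        rw [mem_normalizer_iff]
        intro z
        have haN := mem_normalizer_iff.mp ha
        constructor
        · intro hz
          have := (haN ⟨z, hPN hz⟩).mp hz
          exact this
        · intro hz
          have h4 : z ∈ N := by
            have h5 : (a : G)⁻¹ * (a * z * (a : G)⁻¹) * a ∈ N :=
              N.mul_mem (N.mul_mem (N.inv_mem a.2) (hPN hz)) a.2
            have h6 : (a : G)⁻¹ * (a * z * (a : G)⁻¹) * a = z := by group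
            rwa [h6] at h5
          have := (haN ⟨z, h4⟩).mpr hz
          exact this
      · have h7 : (commutator N).map N.subtype ≤ commutator G := by
          rw [_root_.commutator_def, _root_.commutator_def, map_commutator]
          exact commutator_mono le_top le_top
        exact h7 (mem_map_of_mem _ hb)
      · have := congrArg Subtype.val hab'
        exact this.symm
    have hMN : M ≤ N := by
      intro m hm
      have h1 : m ∈ N ⊔ K := hF ▸ mem_top m
      rw [← SetLike.mem_coe, mul_normal, Set.mem_mul] at h1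
      obtain ⟨n, hn, k, hk, hnk⟩ := h1
      obtain ⟨a, ha, b, hb, rfl⟩ := hfrat n hn
      have h2 : a⁻¹ * m ∈ M ⊓ K := by
        refine ⟨M.mul_mem (M.inv_mem ha.2) hm, ?_⟩
        rw [← hnk]
        have h3 : a⁻¹ * (a * b * k) = b * k := by group
        rw [h3]
        exact K.mul_mem hb hk
      rw [hdisj, mem_bot] at h2
      have h4 : m = a := by rw [inv_mul_eq_one] at h2; exact h2.symm
      rw [h4]
      exact ha.1
    have hQK : Q2 ≤ K := map_subtype_le _
    have hQne : (Q : Subgroup K) ≠ ⊥ := Q.ne_bot_of_dvd_card hqK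
    have hQ2ne : Q2 ≠ ⊥ := by
      rw [hQ2def, Ne, Subgroup.map_eq_bot_iff_of_injective _ K.subtype_injective]
      exact hQne
    have hNtop : N = ⊤ := by
      rcases hM.le_iff.mp hMN with h | h
      · exact h
      · exfalso
        apply hQ2ne
        rw [← le_bot_iff, ← hdisj]
        refine le_inf ?_ hQK
        rw [← h]
        exact le_normalizer
    have hQ2n : Q2.Normal := normalizer_eq_top_iff.mp hNtop
    have hQ2p : IsPGroup q Q2 := Q.isPGroup'.map _
    have hQ2nt : Nontrivial Q2 := (nontrivial_iff_ne_bot Q2).mpr hQ2ne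
    have hcen := hQ2p.center_nontrivial
    refine ⟨(center Q2).map Q2.subtype, inferInstance, ?_, ?_⟩
    · refine ⟨⟨?_⟩⟩
      rintro ⟨x, x', hx', rfl⟩ ⟨y, y', hy', rfl⟩
      apply Subtype.ext
      show (x' : G) * (y' : G) = (y' : G) * (x' : G)
      exact congrArg Subtype.val (mem_center_iff.mp hy' x')
    · have h1 : ¬ (center Q2).map Q2.subtype ≤ M := by
        intro h
        have h2 : (center Q2).map Q2.subtype ≤ ⊥ := by
          rw [← hdisj]
          exact le_inf h ((map_subtype_le _).trans hQK)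
        rw [le_bot_iff, Subgroup.map_eq_bot_iff_of_injective _ Q2.subtype_injective] at h2
        exact (nontrivial_iff_ne_bot _).mp hcen h2
      have h3 : M < (center Q2).map Q2.subtype ⊔ M := by
        refine lt_of_le_of_ne le_sup_right ?_
        intro h4
        apply h1
        rw [h4]
        exact le_sup_left
      exact hM.2 _ h3

theorem commutator_commutator_le (M : Subgroup G) (hM : IsCoatom M) (hab : IsMulCommutative M)
    (hcore : M.normalCore = ⊥) : ⁅commutator G, commutator G⁆ = ⊥ := by
  obtain ⟨V, hVn, hV, hVM⟩ := exists_normal_abelian M hM hab hcore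
  have h1 := commutator_le_of_comm hab hVM
  rw [← le_bot_iff]
  refine (commutator_mono h1 h1).trans ?_
  rw [commutator_le]
  intro a ha b hb
  rw [mem_bot, commutatorElement_eq_one_iff_mul_comm]
  exact comm_of_mem hV ha hb

theorem derivedSeries_three (M : Subgroup G) (hM : IsCoatom M) (hab : IsMulCommutative M) :
    derivedSeries G 3 = ⊥ := by
  set C := M.normalCore with hC
  have hCM : C ≤ M := normalCore_le M
  let f := QuotientGroup.mk' C
  have hf : Function.Surjective f := QuotientGroup.mk'_surjective C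
  have hMM : (M.map f).comap f = M := by
    rw [comap_map_eq, QuotientGroup.ker_mk', sup_eq_left.mpr hCM]
  have hM' : IsCoatom (M.map f) := by
    constructor
    · intro h
      apply hM.1
      rw [← hMM, h, comap_top]
    · intro L hL
      have h1 : M < L.comap f := by
        have h0 := (comap_lt_comap_of_surjective hf).mpr hL
        rwa [hMM] at h0
      have h2 := hM.2 _ h1
      rw [← map_comap_eq_self_of_surjective hf L, h2, ← MonoidHom.range_eq_map, MonoidHom.range_eq_top.mpr hf]
  have hab' : IsMulCommutative (M.map f) := by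
    refine ⟨⟨?_⟩⟩
    rintro ⟨x, x', hx', rfl⟩ ⟨y, y', hy', rfl⟩
    ext
    show f x' * f y' = f y' * f x'
    rw [← map_mul, ← map_mul, comm_of_mem hab hx' hy']
  have hcore' : (M.map f).normalCore = ⊥ := by
    rw [← le_bot_iff]
    have h1 : ((M.map f).normalCore).comap f ≤ C := by
      show _ ≤ M.normalCore
      apply normal_le_normalCore.mpr
      calc ((M.map f).normalCore).comap f ≤ (M.map f).comap f := comap_mono (normalCore_le _)
        _ = M := hMM
    have h2 := map_mono (f := f) h1
    rw [map_comap_eq_self_of_surjective hf] at h2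
    refine h2.trans ?_
    rw [map_le_iff_le_comap, MonoidHom.comap_bot, QuotientGroup.ker_mk']
  have h := commutator_commutator_le (M.map f) hM' hab' hcore'
  have h2 : (derivedSeries G 2).map f = ⊥ := by
    rw [map_derivedSeries_eq hf]
    show ⁅derivedSeries (G ⧸ C) 1, derivedSeries (G ⧸ C) 1⁆ = ⊥
    rw [derivedSeries_one]
    exact h
  have h3 : derivedSeries G 2 ≤ C := by
    rw [Subgroup.map_eq_bot_iff, QuotientGroup.ker_mk'] at h2
    exact h2
  rw [← le_bot_iff]
  show ⁅derivedSeries G 2, derivedSeries G 2⁆ ≤ ⊥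
  rw [commutator_le]
  intro a ha b hb
  rw [mem_bot, commutatorElement_eq_one_iff_mul_comm]
  exact comm_of_mem hab (hCM (h3 ha)) (hCM (h3 hb))

/-- A finite group with an abelian maximal subgroup is solvable. -/
theorem isSolvable (M : Subgroup G) (hM : IsCoatom M) (hab : IsMulCommutative M) :
    Group.IsSolvable G := ⟨⟨3, derivedSeries_three M hM hab⟩⟩

end H74.AbelianMax
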