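import Mathlib
import Cfsg.Agent.Lib.H74.ZDat2
import Cfsg.Agent.Lib.H18.TIFN
import Cfsg.Agent.Lib.H26.SupCard
import Cfsg.Agent.Lib.H1.FrobThm
import Cfsg.Agent.Lib.H8.ZassKern
import Cfsg.Agent.Lib.H72.TpCount
import Cfsg.Agent.S0215
import Cfsg.Agent.S0205

/-!
Groups with a Frobenius system of maximal solvable subgroups.
-/
set_option autoImplicit false
set_option linter.style.haveILetI false
set_option linter.unusedSectionVars false

namespace H74.FrobSys

open Subgroup H28.Cj H28.RelSyl H25.Isolated H25.StrEmb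

universe u

variable {G : Type u} [Group G] [Finite G] {F M : Subgroup G}

/-- the local situation -/
structure FS (F M : Subgroup G) : Prop where
  le : F ≤ M
  nor : M ≤ normalizer (F : Set G)
  fpf : ∀ a ∈ M, a ∉ F → ∀ x ∈ F, x * a = a * x → x = 1
  ti : ∀ g : G, ∀ u ∈ F, u ≠ 1 → g⁻¹ * u * g ∈ F → g ∈ M
  ne : F ≠ ⊥
  sol : Group.IsSolvable M
  max : ∀ M' : Subgroup G, M < M' → ¬ Group.IsSolvable M'

variable (H : FS F M)
include H

theorem FS.cent {u : G} (hu : u ∈ F) (hu1 : u ≠ 1) {x : G} (hx : x * u = u * x) : x ∈ F := by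
  have h1 : x ∈ M := by
    apply H.ti x u hu hu1
    have : x⁻¹ * u * x = u := by
      rw [mul_assoc, ← hx, inv_mul_cancel_left]
    rw [this]; exact hu
  by_contra h
  exact hu1 (H.fpf x h1 h u hu hx.symm)

theorem FS.coprime : (Nat.card F).Coprime F.index := by
  apply H18.TIFN.coprime_card_index F
  intro k hk hk1 x hx
  rw [mem_centralizer_singleton_iff] at hx
  exact H.cent hk hk1 hx

theorem FS.ne_top (hns : ¬ Group.IsSolvable G) : M ≠ ⊤ := by
  intro h
  apply hns
  have h1 := H.sol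
  rw [h] at h1
  exact Group.isSolvable_of_isSolvable_injective (f := (Subgroup.topEquiv (G := G)).symm.toMonoidHom)
    (Subgroup.topEquiv (G := G)).symm.injective

/-- no nontrivial solvable normal subgroup -/
theorem FS.lemC (hns : ¬ Group.IsSolvable G) {A : Subgroup G} (hA : A.Normal)
    (hAs : Group.IsSolvable A) : A = ⊥ := by
  have hAM : A ≤ M := by
    by_contra hcon
    have h1 : M < A ⊔ M := lt_of_le_of_ne le_sup_right (fun h => hcon (by rw [h]; exact le_sup_left))
    refine H.max _ h1 (H26.SupCard.isSolvable_sup ?_ hAs H.sol)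
    rw [Subgroup.normalizer_eq_top]
    exact le_top
  obtain ⟨g, hg⟩ : ∃ g : G, g ∉ M := by
    by_contra hcon
    push Not at hcon
    exact H.ne_top hns (eq_top_iff.mpr fun a _ => hcon a)
  -- the intersection with `F` is trivial
  have hAF : ∀ u ∈ A, u ∈ F → u = 1 := by
    intro u huA huF
    by_contra hu1
    obtain ⟨v, hv⟩ : ∃ v, v = g * u * g⁻¹ := ⟨_, rfl⟩
    have hvA : v ∈ A := by rw [hv]; exact hA.conj_mem u huA g
    have hv1 : v ≠ 1 := by
      intro h
      apply hu1
      rw [hv] at h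
      calc u = g⁻¹ * (g * u * g⁻¹) * g := by group
        _ = 1 := by rw [h]; group
    -- the commutator
    have h1 : u * (v * u⁻¹ * v⁻¹) ∈ F :=
      F.mul_mem huF ((mem_normalizer_iff.mp (H.nor (hAM hvA)) _).mp (F.inv_mem huF))
    have h2 : g⁻¹ * (u * v * u⁻¹ * v⁻¹) * g ∈ F := by
      have h3 : g⁻¹ * u * g ∈ A := by simpa using hA.conj_mem u huA g⁻¹
      have h4 : (g⁻¹ * u * g) * u * (g⁻¹ * u * g)⁻¹ ∈ F :=
        (mem_normalizer_iff.mp (H.nor (hAM h3)) _).mp huF
      have h5 : g⁻¹ * (u * v * u⁻¹ * v⁻¹) * g = (g⁻¹ * u * g) * u * (g⁻¹ * u * g)⁻¹ * u⁻¹ := by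
        rw [hv]; group
      rw [h5]
      exact F.mul_mem h4 (F.inv_mem huF)
    have h3 : u * v * u⁻¹ * v⁻¹ = 1 := by
      by_contra hne
      apply hg
      apply H.ti g (u * v * u⁻¹ * v⁻¹) _ hne h2
      have : u * v * u⁻¹ * v⁻¹ = u * (v * u⁻¹ * v⁻¹) := by group
      rw [this]; exact h1
    have h4 : v * u = u * v := by
      calc v * u = (u * v * u⁻¹ * v⁻¹) * (v * u) := by rw [h3, one_mul]
        _ = u * v := by group
    have h5 := H.cent huF hu1 h4
    apply hg
    apply H.ti g v h5 hv1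
    rw [hv]
    have : g⁻¹ * (g * u * g⁻¹) * g = u := by group
    rw [this]; exact huF
  rw [eq_bot_iff]
  intro a ha
  rw [mem_bot]
  obtain ⟨f, hf⟩ := Subgroup.ne_bot_iff_exists_ne_one.mp H.ne
  have hf1 : (f : G) ≠ 1 := fun h => hf (Subtype.ext h)
  have h1 : a * f * a⁻¹ * (f : G)⁻¹ ∈ F :=
    F.mul_mem ((mem_normalizer_iff.mp (H.nor (hAM ha)) _).mp f.2) (F.inv_mem f.2)
  have h2 : a * f * a⁻¹ * (f : G)⁻¹ ∈ A := by
    have : a * f * a⁻¹ * (f : G)⁻¹ = a * (f * a⁻¹ * (f : G)⁻¹) := by group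
    rw [this]
    exact A.mul_mem ha (hA.conj_mem _ (A.inv_mem ha) f)
  have h3 := hAF _ h2 h1
  have h4 : a * f = f * a := by
    calc a * f = (a * f * a⁻¹ * (f : G)⁻¹) * (f * a) := by group
      _ = f * a := by rw [h3, one_mul]
  exact hAF a ha (H.cent f.2 hf1 h4)

/-- an involution of `M` outside `F` inverts `F` -/
theorem FS.inverts {t : G} (htM : t ∈ M) (ht : orderOf t = 2) (htF : t ∉ F) {x : G} (hx : x ∈ F) :
    t * x * t⁻¹ = x⁻¹ := by
  have htt := self_mul_self ht
  have hti : t⁻¹ = t := inv_eq_self_of_sq htt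
  have hn : ∀ x ∈ F, t * x * t⁻¹ ∈ F := fun x hx => (mem_normalizer_iff.mp (H.nor htM) _).mp hx
  let f : F → F := fun n => ⟨(n : G)⁻¹ * (t * n * t⁻¹), F.mul_mem (F.inv_mem n.2) (hn n n.2)⟩
  have hf : Function.Injective f := by
    intro a b h
    have h1 := congrArg Subtype.val h
    simp only [f] at h1
    have h2 : ((b : G) * (a : G)⁻¹) * t = t * ((b : G) * (a : G)⁻¹) := by
      have h3 : (b : G) * ((a : G)⁻¹ * (t * a * t⁻¹)) = t * b * t⁻¹ := by
        rw [h1]; group
      calc ((b : G) * (a : G)⁻¹) * t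
          = (b : G) * ((a : G)⁻¹ * (t * a * t⁻¹)) * t * (a : G)⁻¹ := by group
        _ = t * b * t⁻¹ * t * (a : G)⁻¹ := by rw [h3]
        _ = _ := by group
    have h4 := H.fpf t htM htF _ (F.mul_mem b.2 (F.inv_mem a.2)) h2
    exact Subtype.ext (mul_inv_eq_one.mp h4).symm
  have hsurj : Function.Surjective f := Finite.surjective_of_injective hf
  obtain ⟨a, ha⟩ := hsurj ⟨x, hx⟩
  have h1 : (a : G)⁻¹ * (t * a * t⁻¹) = x := congrArg Subtype.val ha
  rw [← h1, hti]
  calc t * ((a : G)⁻¹ * (t * a * t)) * t = t * (a : G)⁻¹ * t * a * (t * t) := by group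
    _ = t * (a : G)⁻¹ * t * a := by rw [htt, mul_one]
    _ = t⁻¹ * (a : G)⁻¹ * t⁻¹ * a := by rw [hti]
    _ = ((a : G)⁻¹ * (t * a * t))⁻¹ := by group

/-- if `F` has odd order then a contradiction -/
theorem FS.odd_case (hns : ¬ Group.IsSolvable G) (T : Sylow 2 G) (hT : (T : Subgroup G) ≤ M)
    (h2 : ¬ 2 ∣ Nat.card F) (hG : 2 ∣ Nat.card G) : False := by
  haveI : Fact (Nat.Prime 2) := ⟨Nat.prime_two⟩
  have hFo : ∀ t : G, orderOf t = 2 → t ∉ F := by
    intro t ht htF
    apply h2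
    rw [← ht]
    exact Subgroup.orderOf_dvd_natCard _ htF
  obtain ⟨z, hzT, hz⟩ : ∃ z ∈ (T : Subgroup G), orderOf z = 2 := by
    have h1 : 2 ∣ Nat.card T := by
      have h3 := (T : Subgroup G).card_mul_index
      rw [← h3] at hG
      exact (Nat.prime_two.dvd_mul.mp hG).resolve_right T.not_dvd_index
    obtain ⟨y, hy⟩ := exists_prime_orderOf_dvd_card' (G := T) 2 h1
    rw [← Subgroup.orderOf_coe] at hy
    exact ⟨y, y.2, hy⟩
  have huniq : ∀ s ∈ (T : Subgroup G), orderOf s = 2 → s = z := by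
    intro s hs hs2
    obtain ⟨f, hf⟩ := Subgroup.ne_bot_iff_exists_ne_one.mp H.ne
    have hf1 : (f : G) ≠ 1 := fun h => hf (Subtype.ext h)
    have e1 := H.inverts (hT hs) hs2 (hFo s hs2) f.2
    have e2 := H.inverts (hT hzT) hz (hFo z hz) (F.inv_mem f.2)
    have hzi : z⁻¹ = z := inv_eq_self_of_sq (self_mul_self hz)
    have h3 : (z * s) * f = f * (z * s) := by
      have h4 : z * (s * f * s⁻¹) * z⁻¹ = f := by rw [e1, e2, inv_inv]
      calc (z * s) * f = (z * (s * f * s⁻¹) * z⁻¹) * (z * s) := by group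
        _ = f * (z * s) := by rw [h4]
    have h4 := H.cent f.2 hf1 h3
    -- `z s` is in `F ∩ T = 1`
    have h5 : z * s = 1 := by
      by_contra hne
      have h6 : (z * s) ∈ (T : Subgroup G) := mul_mem hzT hs
      obtain ⟨k, hk⟩ := T.isPGroup' ⟨z * s, h6⟩
      have hk' : (z * s) ^ 2 ^ k = 1 := congrArg Subtype.val hk
      have h7 : orderOf (z * s) ∣ 2 ^ k := orderOf_dvd_of_pow_eq_one hk'
      obtain ⟨j, -, hj⟩ := (Nat.dvd_prime_pow Nat.prime_two).mp h7
      have hj0 : j ≠ 0 := by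
        rintro rfl
        rw [pow_zero, orderOf_eq_one_iff] at hj
        exact hne hj
      apply h2
      refine (dvd_pow_self 2 hj0).trans ?_
      rw [← hj]
      exact Subgroup.orderOf_dvd_natCard _ h4
    rw [← hzi]
    exact eq_inv_of_mul_eq_one_right h5
  obtain ⟨N, hN, hNo, hNz⟩ := Cfsg.Agent.S0215.result T z hz hzT (fun g hg => by
    apply huniq _ hg
    have := MulEquiv.orderOf_eq (MulAut.conj g) z
    rw [MulAut.conj_apply] at this
    rw [this, hz])
  have hNbot := H.lemC hns hN (Cfsg.Agent.S0205.result hNo)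
  have hzc : z ∈ center G := by
    rw [Subgroup.mem_center_iff]
    intro g
    have h3 := hNz g
    rw [hNbot, Subgroup.mem_bot] at h3
    calc g * z = (z * g * z⁻¹ * g⁻¹) * g * z := by rw [h3, one_mul]
      _ = z * g := by group
  have hcb : center G = ⊥ := H.lemC hns inferInstance
    (Group.isSolvable_of_comm fun a b => Subtype.ext (Subgroup.mem_center_iff.mp b.2 a))
  rw [hcb, Subgroup.mem_bot] at hzc
  rw [hzc, orderOf_one] at hz
  omega

/-- if `F` has even order, the classification of Zassenhaus groups applies -/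
theorem FS.even_case (hns : ¬ Group.IsSolvable G) (h2 : 2 ∣ Nat.card F) :
    ∃ m, ZDat.Dat F M m := by
  haveI : Fact (Nat.Prime 2) := ⟨Nat.prime_two⟩
  obtain ⟨m, hm⟩ : ∃ m, Nat.card M = Nat.card F * m := Subgroup.card_dvd_of_le H.le
  have hidx : (F.subgroupOf M).index = m := by
    have h1 := relIndex_mul_card H.le
    rw [hm, mul_comm] at h1
    exact Nat.eq_of_mul_eq_mul_left Nat.card_pos h1
  have hmcop : (Nat.card F).Coprime m := by
    apply Nat.Coprime.coprime_dvd_right _ H.coprime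
    rw [← hidx]
    exact Subgroup.relIndex_dvd_index_of_le H.le
  have hm0 : m ≠ 0 := by
    rintro rfl
    rw [mul_zero] at hm
    exact (Nat.card_pos (α := M)).ne' hm
  have hm1 : m ≠ 1 := by
    rintro rfl
    rw [mul_one] at hm
    have hFM : F = M := Subgroup.eq_of_le_of_card_ge H.le hm.le
    have hTI : H1.Frob.IsTIself F := by
      intro g hg
      rw [eq_bot_iff]
      intro x hx
      obtain ⟨hx1, hx2⟩ := Subgroup.mem_inf.mp hx
      rw [H8.Zass.mem_conj_iff] at hx2
      rw [Subgroup.mem_bot]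
      by_contra hne
      apply hg
      have := H.ti g x hx1 hne hx2
      rwa [← hFM] at this
    obtain ⟨N, -, hN, hc⟩ := H1.FrobThm.frobenius_kernel hTI
    have hNo : Odd (Nat.card N) := by
      rw [← hc.index_eq_card, ← Nat.not_even_iff_odd, even_iff_two_dvd]
      intro h3
      have h4 := Nat.dvd_gcd h2 h3
      rw [H.coprime] at h4
      omega
    have hNbot := H.lemC hns hN (Cfsg.Agent.S0205.result hNo)
    rw [hNbot, Subgroup.isComplement'_bot_left] at hc
    exact H.ne_top hns (by rw [← hFM]; exact hc)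
  have hmodd : Odd m := by
    rw [← Nat.not_even_iff_odd, even_iff_two_dvd]
    intro h
    have h1 := Nat.dvd_gcd h2 h
    rw [hmcop] at h1
    omega
  have hpow : ∀ g ∈ M, g ^ m ∈ F := by
    intro g hg
    haveI hN : (F.subgroupOf M).Normal :=
      (Subgroup.normal_subgroupOf_iff_le_normalizer H.le).mpr H.nor
    have := Subgroup.pow_index_mem (H := F.subgroupOf M) ⟨g, hg⟩
    rw [hidx] at this
    exact this
  have hinv : ∀ t ∈ M, t * t = 1 → t ∈ F := by
    intro t ht htt
    have h1 := hpow t ht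
    obtain ⟨r, hr⟩ := hmodd
    have h2 : t ^ m = t := by
      rw [hr, pow_succ, pow_mul, pow_two, htt, one_pow, one_mul]
    rwa [h2] at h1
  refine ⟨m, ⟨⟨H.ne_top hns, ?_, ?_⟩, h2, H.le, H.nor, hm, hmcop, by omega,
    fun u hu hu1 x hx => H.cent hu hu1 hx, H.ti⟩⟩
  · rw [even_iff_two_dvd, hm]
    exact Dvd.dvd.mul_right h2 m
  · intro g hg
    rw [← Nat.not_even_iff_odd, even_iff_two_dvd]
    intro h
    obtain ⟨t, ht⟩ := exists_prime_orderOf_dvd_card' 2 h
    rw [← Subgroup.orderOf_coe] at ht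
    have htt := self_mul_self ht
    obtain ⟨ht1, ht2⟩ := Subgroup.mem_inf.mp t.2
    rw [mem_map_conj] at ht2
    apply hg
    apply H.ti g t (hinv _ ht1 htt) _ (hinv _ ht2 _)
    · intro h1; rw [h1, orderOf_one] at ht; omega
    · calc g⁻¹ * (t : G) * g * (g⁻¹ * t * g) = g⁻¹ * (t * t) * g := by group
        _ = 1 := by rw [htt]; group

omit H

theorem solvable_normalizer_sylow (T : Sylow 2 G) :
    Group.IsSolvable (normalizer ((T : Subgroup G) : Set G)) := by
  haveI : Fact (Nat.Prime 2) := ⟨Nat.prime_two⟩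
  obtain ⟨N, hN⟩ : ∃ N : Subgroup G, N = normalizer ((T : Subgroup G) : Set G) := ⟨_, rfl⟩
  rw [← hN]
  have hTN : (T : Subgroup G) ≤ N := by rw [hN]; exact le_normalizer
  haveI hn : ((T : Subgroup G).subgroupOf N).Normal :=
    (Subgroup.normal_subgroupOf_iff_le_normalizer hTN).mpr hN.le
  rw [Group.isSolvable_iff_subgroup_quotient ((T : Subgroup G).subgroupOf N)]
  constructor
  · have h1 : IsPGroup 2 ((T : Subgroup G).subgroupOf N) :=
      (isPGroup_subgroupOf hTN).mpr T.isPGroup'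
    haveI := h1.isNilpotent
    infer_instance
  · apply Cfsg.Agent.S0205.result
    rw [← Nat.not_even_iff_odd, even_iff_two_dvd]
    intro h
    apply T.not_dvd_index
    refine h.trans ?_
    exact Subgroup.relIndex_dvd_index_of_le hTN

end H74.FrobSys
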