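import Cfsg.Agent.Lib.H74.GWGood4
import Cfsg.Agent.Lib.H65.GWArith
import Cfsg.Agent.Lib.H18.GWC3

set_option autoImplicit false

/-!
T-GW4, endgame: the (gamma) structure `Gm`, [GOOD], the character lemma (C3') and the
arithmetic give a contradiction.
-/

namespace H74.GW

open Cfsg Subgroup H4.GW H28.Cj H28.RelSyl

universe u

variable {G : Type u} [Group G] [Finite G] {V A T F : Subgroup G} {t s : G} {p : ℕ}

omit [Finite G] in
/-- the elements of order two -/
theorem card_two : Nat.card {x : G // orderOf x = 2} = Nat.card (Ivs (⊤ : Subgroup G)) := by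
  have : {x : G | orderOf x = 2} = Ivs (⊤ : Subgroup G) := by
    ext x
    constructor
    · intro h
      refine ⟨trivial, ?_, ?_⟩
      · rw [← pow_two, ← (show orderOf x = 2 from h), pow_orderOf_eq_one]
      · rintro rfl
        have h' : orderOf (1 : G) = 2 := h
        rw [orderOf_one] at h'
        omega
    · rintro ⟨_, h2, h1⟩
      exact orderOf_eq_prime (by rw [pow_two]; exact h2) h1
  exact Nat.card_congr (Equiv.setCongr this)

/-- (C3') in the language of `Base` -/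
theorem c3b (B : Base V) (ht : t ∈ V) (hs : s ∈ V) (ht1 : t ≠ 1) (hs1 : s ≠ 1) (hst : s ≠ t)
    (hW : ∀ x ∈ U t, x ∈ W V ↔ s * x = x * s) (hWU : W V ≤ U t)
    {N : Subgroup G} (hN : N ≤ U t) (hN' : ∃ u ∈ U t, u ∉ N) (nN : Ce t ≤ normalizer (N : Set G))
    (inv : ∀ u ∈ U t, s * u * s⁻¹ * u ∈ N) (cent : ∀ g ∈ U t, g ∉ N → Ce g ≤ Ce t) :
    ∃ w : ℤ, w ≠ 0 ∧ w ^ 2 * (Nat.card (Ivs (⊤ : Subgroup G)) : ℤ) =
      ((W V).relIndex (U t) : ℤ) ^ 2 * (4 * w + 1) * (2 * w + 1) := by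
  have : Fact (Nat.Prime 2) := ⟨Nat.prime_two⟩
  have hC3 : H18.GW.C3 t s (U t) N := by
    refine ⟨B.sq t ht, ht1, B.sq s hs, hs1, B.comm ht hs, hst.symm, ?_, ?_, odd_oc _, ?_, hN, hN', ?_, inv, ?_⟩
    · intro u hu
      exact mem_Ce.1 (oc_le _ hu)
    · intro g hg u hu
      exact (mem_normalizer_iff.1 (le_norm_oc (Ce t) (mem_Ce.2 hg.symm)) u).1 hu
    · intro g hg
      obtain ⟨y, hy, w, hw, e⟩ := mem_oc_sup (V_le_Ce B ht) (Ce_eq B ht ht1) (mem_Ce.2 hg.symm)
      have hwy : w * y * w⁻¹ ∈ U t := (mem_normalizer_iff.1 (le_norm_oc (Ce t) (V_le_Ce B ht hw)) y).1 hy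
      have key : w * g ∈ U t := by
        rw [e, show w * (y * w) = w * y * w⁻¹ * (w * w) by group, B.sq w hw, mul_one]
        exact hwy
      rcases mem_four B ht hs ht1 hs1 hst hw with h | h | h | h
      · left; rw [h, one_mul] at key; exact key
      · right; left; rw [h] at key; exact key
      · right; right; left; rw [h] at key; exact key
      · right; right; right
        rw [h, B.comm hs ht, mul_assoc] at key
        exact key
    · intro g hg n hn
      exact (mem_normalizer_iff.1 (nN (mem_Ce.2 hg.symm)) n).1 hn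
    · intro g hg hgN y hy
      have := cent g hg hgN (mem_Ce.2 hy.symm)
      exact (mem_Ce.1 this).symm
  have hs2 : ¬ 2 ∣ V.index := by
    intro h
    exact (Nat.not_even_iff_odd.2 B.syl) (even_iff_two_dvd.2 h)
  have hP : IsKleinFour ((B.isPGroup.toSylow hs2 : Sylow 2 G) : Subgroup G) := by
    change IsKleinFour V
    refine ⟨B.card, ?_⟩
    rw [← not_isCyclic_iff_exponent_eq_prime Nat.prime_two (by rw [B.card]; norm_num)]
    intro hcyc
    obtain ⟨g, hg⟩ := hcyc.exists_generator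
    have h5 : g * g = 1 := Subtype.ext (B.sq g g.2)
    have h6 : Nat.card V ≤ 2 := by
      rw [← orderOf_eq_card_of_forall_mem_zpowers hg]
      exact Nat.le_of_dvd (by norm_num) (orderOf_dvd_of_pow_eq_one (by rw [pow_two]; exact h5))
    rw [B.card] at h6
    omega
  have hone : ∀ a b : G, orderOf a = 2 → orderOf b = 2 → IsConj a b := by
    have h1 : ∀ a : G, orderOf a = 2 → IsConj t a := by
      intro a ha
      have h2 : a * a = 1 := by rw [← pow_two, ← ha, pow_orderOf_eq_one]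
      have h3 : a ≠ 1 := by
        rintro rfl
        rw [orderOf_one] at ha
        omega
      obtain ⟨g, hg⟩ := H24.GWD.fuse B h2 h3 ht ht1
      exact isConj_iff.2 ⟨g, hg⟩
    intro a b ha hb
    exact (h1 a ha).symm.trans (h1 b hb)
  have hWe : U t ⊓ centralizer ({s} : Set G) = W V := by
    apply le_antisymm
    · rintro x ⟨hx, hxs⟩
      exact (hW x hx).2 (mem_Ce.1 hxs)
    · intro x hx
      exact ⟨hWU hx, mem_Ce.2 ((hW x (hWU hx)).1 hx)⟩
  obtain ⟨w, hw, e⟩ := H18.GW.c3 hC3 _ hP hone (m := (W V).relIndex (U t)) (by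
    rw [hWe, mul_comm, H28.RelSyl.relIndex_mul_card hWU])
  refine ⟨w, hw, ?_⟩
  rw [card_two] at e
  exact e

/-- the endgame: (gamma), [GOOD], (C3') and the arithmetic -/
theorem final (B : Base V) (Γ : Gm V A T F t s p) {x : G} {τ : ℕ} {ε : ℤ} (X : CX V x τ ε)
    (hT : Nat.card T = τ) (hxV : ∀ v ∈ V, v * x = x * v) (hx1 : x ≠ 1) (hxp : x ^ p = 1)
    (hW : ∀ x ∈ U t, x ∈ W V ↔ s * x = x * s) (hWU : W V ≤ U t)
    (hk1 : 1 < F.relIndex (U t)) (hm : (W V).relIndex (U t) = p * F.relIndex (U t) * τ)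
    (inv : ∀ u ∈ U t, s * u * s⁻¹ * u ∈ F) : False := by
  have hUo : Odd (Nat.card (U t)) := odd_oc _
  have hN' : ∃ u ∈ U t, u ∉ F := by
    by_contra hcon
    push Not at hcon
    have : F.relIndex (U t) = 1 := relIndex_eq_one.2 hcon
    omega
  obtain ⟨w, hw, e⟩ := c3b B Γ.tV Γ.sV Γ.t1 Γ.s1 Γ.st hW hWU Γ.FU hN' Γ.Fn inv
    (fun g hg hgF => good B Γ hg hgF)
  have hko : Odd (F.relIndex (U t)) := Odd.of_dvd_nat hUo (relIndex_dvd_card _ _)
  have hpo : Odd p := Γ.pp.odd_of_ne_two Γ.p2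
  have hp3 : 3 ≤ p := by
    have := Γ.pp.two_le
    have := Γ.p2
    omega
  have hmd : (W V).relIndex (U t) ∣ Nat.card (U t) := relIndex_dvd_card _ _
  have hcop : Nat.Coprime (Nat.card (Ivs (⊤ : Subgroup G))) ((W V).relIndex (U t)) :=
    Nat.Coprime.coprime_dvd_right hmd (cop B Γ)
  have hq0 : (((4 * (τ : ℤ) + ε).natAbs : ℕ) : ℤ) = 4 * (τ : ℤ) + ε := by
    rw [Int.natCast_natAbs, abs_of_nonneg]
    have := X.tau_ge
    omega
  have hN0 : 0 < Nat.card (Ivs (⊤ : Subgroup G)) := by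
    rw [Nat.card_pos_iff]
    refine ⟨⟨⟨t, trivial, B.sq t Γ.tV, Γ.t1⟩⟩, inferInstance⟩
  refine H65.GWArith.finish (Nat.card (Ivs (⊤ : Subgroup G))) ((W V).relIndex (U t)) p
    (F.relIndex (U t)) τ (4 * (τ : ℤ) + ε).natAbs ε X.eps hp3 hpo hko hk1 Γ.k ?_ ?_ hm hq0 X.pp
    (qdvd B Γ X hT hxV hx1 hxp) hN0 hcop w hw ?_
  · rw [← hT]; exact Nat.card_pos
  · rw [← hT]; exact Γ.pT
  · rw [e]; ring

end H74.GW
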