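import Cfsg.Agent.Lib.H74.GWGood2

set_option autoImplicit false
set_option linter.unusedSectionVars false
set_option linter.style.haveILetI false

/-!
T-GW4 [GOOD], part 3: `C_G(g) ≤ C(t)` for `g ∈ U_t - F`.
-/

namespace H74.GW

open Cfsg Subgroup H4.GW H28.Cj H28.RelSyl H28.RelHall H28.RelCore

universe u

variable {G : Type u} [Group G] [Finite G] {V A T F : Subgroup G} {t s : G} {p : ℕ}

theorem cj_U (g v : G) : cj g (U v) = U (g * v * g⁻¹) := by
  show cj g (oc (Ce v)) = oc (Ce (g * v * g⁻¹))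
  rw [← oc_cj, cj_Ce]

theorem isCyclic_cj {g : G} {D : Subgroup G} (h : IsCyclic (cj g D)) : IsCyclic D := by
  let e := D.equivMapOfInjective (MulAut.conj g).toMonoidHom (MulAut.conj g).injective
  have h' : IsCyclic (D.map (MulAut.conj g).toMonoidHom) := h
  exact isCyclic_of_injective e.toMonoidHom e.injective

theorem V_norm_A (B : Base V) (Γ : Gm V A T F t s p) {D : Subgroup G} (hD : D ≤ A) :
    V ≤ normalizer (D : Set G) := by
  apply le_normalizer_of_conj_mem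
  intro v hv x hx
  by_cases hv1 : v = 1
  · rw [hv1]; simpa using hx
  by_cases hvt : v = t
  · rw [hvt, mem_Ce'.1 (oc_le _ (Γ.AU (hD hx)))]; exact hx
  · rw [inv_of_ne Γ B hv hv1 hvt (hD hx)]; exact D.inv_mem hx

/-- some involution of `V` has a fixed point on a nontrivial `V`-invariant group of odd order -/
theorem exists_fix (B : Base V) (ht : t ∈ V) (hs : s ∈ V) (t1 : t ≠ 1) (s1 : s ≠ 1) (st : s ≠ t)
    {S : Subgroup G} (hS : Odd (Nat.card S)) (hVS : V ≤ normalizer (S : Set G)) (hne : S ≠ ⊥) :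
    ∃ v ∈ V, v ≠ 1 ∧ ∃ y ∈ S, y ≠ 1 ∧ y ∈ Ce v := by
  obtain ⟨x, hx, hx1⟩ : ∃ x ∈ S, x ≠ 1 := by
    obtain ⟨a, ha⟩ := Subgroup.ne_bot_iff_exists_ne_one.1 hne
    exact ⟨(a : G), a.2, fun h => ha (Subtype.ext h)⟩
  obtain ⟨c, hc, a, ha, hct, haI, rfl⟩ := exists_decomp hS (B.sq t ht) (hVS ht) hx
  by_cases hc1 : c = 1
  · subst hc1
    rw [one_mul] at hx1
    obtain ⟨c', hc', b, hb, hcs, hbI, hab⟩ := exists_decomp hS (B.sq s hs) (hVS hs) ha
    -- `c'` commutes with `s`; is it nontrivial ?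
    by_cases hc1' : c' = 1
    · subst hc1'
      rw [one_mul] at hab
      subst hab
      refine ⟨s * t, V.mul_mem hs ht, ?_, a, ha, hx1, ?_⟩
      · intro h
        apply st
        have := B.inv ht
        rw [← this]
        exact mul_eq_one_iff_eq_inv.1 h
      · rw [mem_Ce']
        have h1 : t * a * t⁻¹ = a⁻¹ := haI
        have h2 : s * a * s⁻¹ = a⁻¹ := hbI
        calc s * t * a * (s * t)⁻¹ = s * (t * a * t⁻¹) * s⁻¹ := by group
          _ = (s * a * s⁻¹)⁻¹ := by rw [h1]; group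
          _ = a := by rw [h2, inv_inv]
    · exact ⟨s, hs, s1, c', hc', hc1', mem_Ce'.2 hcs⟩
  · exact ⟨t, ht, t1, c, hc, hc1, mem_Ce'.2 hct⟩

theorem card_U_eq (B : Base V) {u v : G} (hu : u ∈ V) (hv : v ∈ V) (hu1 : u ≠ 1) (hv1 : v ≠ 1) :
    Nat.card (U u) = Nat.card (U v) := by
  obtain ⟨g, -, hg⟩ := B.conj u hu v hv hu1 hv1
  rw [← hg, ← cj_U, card_cj]

/-- `r`-subgroups of `U_v`, `r ∤ |F|`, are cyclic -/
theorem cyc_r (B : Base V) (Γ : Gm V A T F t s p) {r : ℕ} [hr : Fact r.Prime]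
    (hrT : ¬ r ∣ Nat.card T) {v : G} (hv : v ∈ V) (hv1 : v ≠ 1) {D : Subgroup G} (hD : IsPGroup r D)
    (hDo : Odd (Nat.card D)) (hDv : ∀ x ∈ D, v * x = x * v) : IsCyclic D := by
  have h1 : D ≤ U v := le_U_of_odd B hv hv1 (fun x hx => mem_Ce.2 (hDv x hx)) hDo
  obtain ⟨g, -, hg⟩ := B.conj v hv t Γ.tV hv1 Γ.t1
  apply isCyclic_cj (g := g)
  have h2 : cj g D ≤ U t := by
    rw [← hg, ← cj_U]; exact cj_le_cj.2 h1
  apply Γ.cyc _ h2
  rw [eq_bot_iff]
  intro x hx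
  have h3 : IsPGroup r (cj g D) := isPGroup_cj.2 hD
  obtain ⟨n, hn⟩ := H59.CopAct.isP_pow h3 hx.1
  have h4 : orderOf x ∣ r ^ n := orderOf_dvd_of_pow_eq_one hn
  have h5 : orderOf x ∣ Nat.card F := by
    have := orderOf_dvd_natCard (⟨x, hx.2⟩ : F)
    rwa [Subgroup.orderOf_mk] at this
  have h6 : ¬ r ∣ Nat.card F := fun h => hrT (Γ.Fpr r hr.out h)
  have h7 : orderOf x = 1 := by
    obtain ⟨m, -, hm⟩ := (Nat.dvd_prime_pow hr.out).1 h4
    rcases m with _ | m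
    · simpa using hm
    · exfalso
      apply h6
      refine dvd_trans ?_ h5
      rw [hm]
      exact dvd_pow_self r (Nat.succ_ne_zero m)
  rw [mem_bot]
  exact orderOf_eq_one_iff.1 h7

theorem good0 (B : Base V) (Γ : Gm V A T F t s p) {g : G} (hg : g ∈ A) (hgT : g ∉ T) :
    Ce g ≤ Ce t := by
  have := Fact.mk Γ.pp
  obtain ⟨hVN, hN, hdec⟩ := Ce_decomp Γ B hg hgT
  set N := normalizer (zpowers g : Set G) with hNdef
  set Y := oc N ⊓ Ce g with hYdef
  have htt : t ∈ Ce t := mem_Ce.2 rfl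
  suffices hY : Y ≤ Ce t by
    intro y hy
    obtain ⟨y₀, hy₀, rfl | rfl⟩ := hdec y hy
    · exact hY hy₀
    · exact (Ce t).mul_mem (hY hy₀) htt
  have hYo : Odd (Nat.card Y) := odd_of_le inf_le_left (odd_oc N)
  have hVCe : V ≤ normalizer (Ce g : Set G) := by
    have h1 := H1.Coprime2.le_normalizer_centralizer hVN
    rwa [H2.BGCop.centralizer_zpowers_eq] at h1
  have hVY : V ≤ normalizer (Y : Set G) :=
    H1.Coprime2.le_normalizer_inf (hVN.trans (le_norm_oc N)) hVCe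
  have hYt : Y ⊓ Ce t ≤ A := by
    intro y hy
    exact mem_A_of_comm Γ B hg hgT hy.2 (odd_orderOf_of_mem hYo hy.1) (mem_Ce.1 hy.1.2).symm
  have hAo : Odd (Nat.card A) := odd_of_le Γ.AU (odd_oc _)
  have hAY : A ≤ Y := by
    have h1 : A ≤ Ce g := fun a ha => mem_Ce.2 (comm_A Γ hg ha)
    refine le_inf ?_ h1
    refine le_oc_of_odd hVN B.sq hN ?_ hAo
    refine h1.trans ?_
    have h2 := centralizer_le_normalizer (zpowers g : Set G)
    rwa [H2.BGCop.centralizer_zpowers_eq] at h2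
  have hcopV : ∀ L : Subgroup G, Odd (Nat.card L) → (Nat.card V).Coprime (Nat.card L) := by
    intro L hL
    rw [B.card, show (4 : ℕ) = 2 ^ 2 by norm_num]
    exact Nat.Coprime.pow_left 2 (Nat.coprime_two_left.2 hL)
  have hVs : Group.IsSolvable V := by
    have := Fact.mk Nat.prime_two
    exact H2.BGCop.isSolvable_of_isPGroup B.isPGroup
  -- primes dividing `|T|`
  have hstep1 : ∀ r : ℕ, r.Prime → r ∣ Nat.card T →
      ∃ R, IsSyl r R Y ∧ V ≤ normalizer (R : Set G) ∧ R ≤ Ce t := by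
    intro r hr hrT
    have := Fact.mk hr
    obtain ⟨Tr, hTr⟩ := exists_isSyl r T
    have hTrA : Tr ≤ A := hTr.le.trans Γ.TA
    obtain ⟨R, hR, hTR, hVR⟩ := H2.BGCop.exists_inv_syl_ge hVY (hcopV Y hYo) (Or.inl hVs) r
      (hTrA.trans hAY) hTr.isPGroup (V_norm_A B Γ hTrA)
    refine ⟨R, hR, hVR, ?_⟩
    have hr2 : r ≠ 2 := by
      rintro rfl
      have h1 : Odd (Nat.card T) := odd_of_le (Γ.TA.trans Γ.AU) (odd_oc _)
      exact (Nat.not_even_iff_odd.2 h1) (even_iff_two_dvd.2 hrT)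
    refine key_le hr2 (tsq B Γ) hR.isPGroup (hVR Γ.tV) ?_
    intro x _ hc
    have h1 : x ∈ normalizer (Tr : Set G) := by
      apply centralizer_le_normalizer
      rw [mem_centralizer_iff]
      intro a ha
      exact hc a (hTR ha) (oc_le _ (Γ.AU (hTrA ha)))
    exact mem_Ce.1 (Γ.nT Tr hTr.le (hTr.ne_bot hrT) h1)
  obtain ⟨R, hR, hVR, hRt⟩ := hstep1 p Γ.pp Γ.pT
  have hRA : R ≤ A := fun x hx => hYt ⟨hR.le hx, hRt hx⟩
  have hRT : R ≤ T := by
    intro x hx
    obtain ⟨n, hn⟩ := H59.CopAct.isP_pow hR.isPGroup hx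
    exact mem_T_of_p Γ (hRA hx) hn
  have hRne : R ≠ ⊥ := by
    apply hR.ne_bot
    exact Γ.pT.trans (card_dvd_of_le (Γ.TA.trans hAY))
  have hNR : normalizer (R : Set G) ≤ Ce t := Γ.nT R hRT hRne
  obtain ⟨M, hMY, hpM, hMmax, hMn⟩ := H71.PiHall.burnside hR (by
    intro y hy
    have h1 : y ∈ A := hYt ⟨hy.1, hNR hy.2⟩
    rw [mem_centralizer_iff]
    intro x hx
    exact comm_A Γ (hRA hx) h1)
  have hRM : R ≤ normalizer (M : Set G) := fun x hx => hMn x (le_normalizer (hR.le hx))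
  have hVM : V ≤ normalizer (M : Set G) := fun x hx => hMn x (hVY hx)
  have hRVs : Group.IsSolvable (V ⊔ R : Subgroup G) :=
    H27.Sig.isSolvable_sup hVs (H2.BGCop.isSolvable_of_isPGroup hR.isPGroup) hVR
  have hMo : Odd (Nat.card M) := odd_of_le hMY hYo
  have hcop : (Nat.card (V ⊔ R : Subgroup G)).Coprime (Nat.card M) := by
    refine Nat.Coprime.coprime_dvd_left (H28.RelHall.card_sup_dvd hVR) ?_
    exact Nat.Coprime.mul_left (hcopV M hMo) (H2.BGCop.coprime_of_isPGroup hR.isPGroup hpM)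
  have hall : Y ⊓ Ce t = Y := by
    apply eq_of_forall_isSyl_le inf_le_left
    intro r hr
    by_cases hrT : r ∣ Nat.card T
    · obtain ⟨Q, hQ, -, hQt⟩ := hstep1 r hr.out hrT
      exact ⟨Q, hQ, le_inf hQ.le hQt⟩
    have hrp : r ≠ p := by rintro rfl; exact hrT Γ.pT
    obtain ⟨S, hS, hSn⟩ := H2.BGCop.exists_inv_syl (sup_le hVM hRM) hcop (Or.inl hRVs) r
    have hSY : IsSyl r S Y := by
      obtain ⟨Q, hQ, hSQ⟩ := exists_isSyl_ge hS.isPGroup (hS.le.trans hMY)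
      have hQM : Q ≤ M := by
        apply hMmax Q hQ.le
        intro hd
        obtain ⟨n, hn⟩ := IsPGroup.iff_card.1 hQ.isPGroup
        rw [hn] at hd
        exact hrp ((Nat.prime_dvd_prime_iff_eq Γ.pp hr.out).1 (Γ.pp.dvd_of_dvd_pow hd)).symm
      have : S = Q := (hS.eq_of_le hQ.isPGroup hSQ hQM).symm
      rw [this]; exact hQ
    refine ⟨S, hSY, le_inf hSY.le ?_⟩
    by_cases hSb : S = ⊥
    · rw [hSb]; exact bot_le
    have hSo : Odd (Nat.card S) := odd_of_le hSY.le hYo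
    have hVS : V ≤ normalizer (S : Set G) := le_sup_left.trans hSn
    have hRS : R ≤ normalizer (S : Set G) := le_sup_right.trans hSn
    -- `r ∣ k`
    obtain ⟨v, hv, hv1, y, hyS, hy1, hyv⟩ := exists_fix B Γ.tV Γ.sV Γ.t1 Γ.s1 Γ.st hSo hVS hSb
    have hrU : r ∣ Nat.card (U t) := by
      rw [card_U_eq B Γ.tV hv Γ.t1 hv1]
      have h1 : y ∈ U v := mem_U_of_odd B hv hv1 hyv (odd_orderOf_of_mem hSo hyS)
      obtain ⟨n, hn⟩ := H59.CopAct.isP_pow hS.isPGroup hyS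
      have h4 : orderOf y ∣ r ^ n := orderOf_dvd_of_pow_eq_one hn
      have h5 : orderOf y ∣ Nat.card (U v) := by
        have := orderOf_dvd_natCard (⟨y, h1⟩ : U v)
        rwa [Subgroup.orderOf_mk] at this
      obtain ⟨m, -, hm⟩ := (Nat.dvd_prime_pow hr.out).1 h4
      rcases m with _ | m
      · exact absurd (orderOf_eq_one_iff.1 (by simpa using hm)) hy1
      · refine dvd_trans ?_ h5
        rw [hm]
        exact dvd_pow_self r (Nat.succ_ne_zero m)
    have hrk : r ∣ F.relIndex (U t) := by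
      rw [← relIndex_mul_card Γ.FU] at hrU
      rcases hr.out.dvd_mul.1 hrU with h | h
      · exact h
      · exact absurd (Γ.Fpr r hr.out h) hrT
    have hrle := Nat.le_of_dvd (k_pos Γ) hrk
    have hk := Γ.k
    have hr2 : r ≠ 2 := by
      rintro rfl
      exact (Nat.not_even_iff_odd.2 (odd_oc (Ce t))) (even_iff_two_dvd.2 hrU)
    have hr3 := hr.out.two_le
    have hp3 := Γ.pp.two_le
    have h1 : ¬ p ∣ r - 1 := by
      intro hd
      have := Nat.le_of_dvd (by omega) hd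
      omega
    have h2 : ¬ p ∣ r ^ 2 - 1 := by
      intro hd
      have e : r ^ 2 - 1 = (r - 1) * (r + 1) := by
        obtain ⟨m, rfl⟩ : ∃ m, r = m + 1 := ⟨r - 1, by omega⟩
        rw [Nat.add_sub_cancel]
        have : (m + 1) ^ 2 = m * (m + 1 + 1) + 1 := by ring
        rw [this, Nat.add_sub_cancel]
      rw [e] at hd
      rcases Γ.pp.dvd_mul.1 hd with h | h
      · exact h1 h
      · have := Nat.le_of_dvd (by omega) h
        omega
    have hkey := rank_key (p := p) (r := r) hr2 hrp.symm h1 h2 hR.isPGroup (tsq B Γ) (ssq B Γ)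
      (B.comm Γ.tV Γ.sV) (fun x hx => (mem_Ce.1 (hRt hx)).symm) (Nat.card S) S le_rfl hS.isPGroup hRS
      (hVS Γ.tV) (hVS Γ.sV)
      (fun x _ hc => mem_Ce.1 (hNR (centralizer_le_normalizer _ (mem_centralizer_iff.2 hc))))
      (by
        intro x hx hxt hxs
        have h3 : x ∈ A := hYt ⟨hSY.le hx, mem_Ce.2 hxt⟩
        have h4 : s * x * s⁻¹ = x⁻¹ := Γ.inv x h3
        rw [mul_inv_eq_iff_eq_mul.2 hxs] at h4
        exact eq_one_of_sq (odd_orderOf_of_mem hSo hx) (by nth_rw 1 [h4]; exact inv_mul_cancel x))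
      (fun D hD hDs => cyc_r B Γ hrT Γ.sV Γ.s1 (hS.isPGroup.to_le hD) (odd_of_le hD hSo) hDs)
      (fun D hD hDs => cyc_r B Γ hrT (V.mul_mem Γ.sV Γ.tV) (by
          intro h
          apply Γ.st
          rw [← B.inv Γ.tV]
          exact mul_eq_one_iff_eq_inv.1 h) (hS.isPGroup.to_le hD) (odd_of_le hD hSo) hDs)
    exact fun x hx => mem_Ce.2 (hkey x hx)
  exact inf_eq_left.1 hall

/-- GOOD -/
theorem good (B : Base V) (Γ : Gm V A T F t s p) {g : G} (hg : g ∈ U t) (hgF : g ∉ F) :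
    Ce g ≤ Ce t := by
  obtain ⟨u, hu, hug⟩ := Γ.conj g hg hgF
  have h1 : u * g * u⁻¹ ∉ T := by
    intro h
    apply hgF
    exact (mem_normalizer_iff.1 (Γ.Fn (oc_le _ hu)) g).2 (Γ.TF h)
  have h2 := good0 B Γ hug h1
  rw [← cj_Ce] at h2
  have h3 : cj u (Ce t) = Ce t := cj_eq_self_of_mem (oc_le _ hu)
  rw [← h3] at h2
  exact cj_le_cj.1 h2

end H74.GW
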