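import Cfsg.Agent.Lib.H74.GWGood3
import Cfsg.Agent.Lib.H24.GWD2

set_option autoImplicit false
set_option linter.unusedSectionVars false
set_option linter.style.haveILetI false

/-!
T-GW4 [GOOD], part 4: consequences: `gcd(|I|, |U_t|) = 1` and `q_x ∣ |I|`.
-/

namespace H74.GW

open Cfsg Subgroup H4.GW H28.Cj H28.RelSyl H28.RelHall H28.RelCore

universe u

variable {G : Type u} [Group G] [Finite G] {V A T F : Subgroup G} {t s : G} {p : ℕ}

theorem card_I (B : Base V) (ht : t ∈ V) (ht1 : t ≠ 1) :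
    Nat.card (Ivs (⊤ : Subgroup G)) * Nat.card (Ce t) = Nat.card G := by
  have e2 := H24.GWD.card_orb_el (⊤ : Subgroup G) t
  rw [top_inf_eq] at e2
  have hI : {v : G | ∃ g ∈ (⊤ : Subgroup G), g * t * g⁻¹ = v} = Ivs (⊤ : Subgroup G) := by
    ext v
    constructor
    · rintro ⟨g, _, rfl⟩
      refine ⟨trivial, ?_, ?_⟩
      · rw [show g * t * g⁻¹ * (g * t * g⁻¹) = g * (t * t) * g⁻¹ by group, B.sq t ht]; group
      · intro h
        apply ht1
        have := congrArg (fun y => g⁻¹ * y * g) h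
        simpa [mul_assoc] using this
    · rintro ⟨_, h1, h2⟩
      obtain ⟨g, hg⟩ := H24.GWD.fuse B h1 h2 ht ht1
      exact ⟨g, trivial, hg⟩
  rw [hI, Subgroup.card_top] at e2
  rwa [Nat.card_coe_set_eq]

/-- an involution of `C(t)` is `t` or `y w` with `w ∈ V - ⟨t⟩` -/
theorem invol_cases (B : Base V) (ht : t ∈ V) (ht1 : t ≠ 1) {v : G} (hv : v ∈ Ce t) (hv2 : v * v = 1)
    (hv1 : v ≠ 1) : v = t ∨ ∃ y ∈ U t, ∃ w ∈ V, w ≠ 1 ∧ w ≠ t ∧ v = y * w := by
  obtain ⟨y, hy, w, hw, e⟩ := mem_oc_sup (V_le_Ce B ht) (Ce_eq B ht ht1) hv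
  have hyo := odd_orderOf_of_mem (odd_oc _) hy
  by_cases hw1 : w = 1
  · exfalso
    rw [hw1, mul_one] at e
    rw [e] at hv2 hv1
    exact hv1 (eq_one_of_sq hyo hv2)
  by_cases hwt : w = t
  · left
    rw [hwt] at e
    have h1 : t * y = y * t := mem_Ce.1 (oc_le _ hy)
    have h2 : y * y = 1 := by
      have : v * v = y * y * (t * t) := by
        rw [e]
        calc y * t * (y * t) = y * (t * y) * t := by group
          _ = y * y * (t * t) := by rw [h1]; group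
      rw [this, B.sq t ht, mul_one] at hv2
      exact hv2
    rw [e, eq_one_of_sq hyo h2, one_mul]
  · exact Or.inr ⟨y, hy, w, hw, hw1, hwt, e⟩

theorem conj_invol (B : Base V) (ht : t ∈ V) (ht1 : t ≠ 1) (n : G) :
    (n * t * n⁻¹) * (n * t * n⁻¹) = 1 ∧ n * t * n⁻¹ ≠ 1 := by
  constructor
  · rw [show n * t * n⁻¹ * (n * t * n⁻¹) = n * (t * t) * n⁻¹ by group, B.sq t ht]; group
  · intro h
    apply ht1
    have := congrArg (fun y => n⁻¹ * y * n) h
    simpa [mul_assoc] using this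

/-- Sylow normalisers -/
theorem norm_syl (B : Base V) (Γ : Gm V A T F t s p) {r : ℕ} [hr : Fact r.Prime]
    (hrU : r ∣ Nat.card (U t)) :
    ∃ R, IsSyl r R (U t) ∧ normalizer (R : Set G) ≤ Ce t := by
  by_cases hrT : r ∣ Nat.card T
  · obtain ⟨Tr, hTr⟩ := exists_isSyl r T
    obtain ⟨R, hR, hTR⟩ := exists_isSyl_ge hTr.isPGroup (hTr.le.trans (Γ.TA.trans Γ.AU))
    refine ⟨R, hR, ?_⟩
    intro n hn
    have hTne := hTr.ne_bot hrT
    -- `v = n t n⁻¹` centralises `R`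
    set v := n * t * n⁻¹ with hv
    obtain ⟨hv2, hv1⟩ := conj_invol B Γ.tV Γ.t1 n
    have hvR : ∀ x ∈ R, v * x * v⁻¹ = x := by
      intro x hx
      have h1 : n⁻¹ * x * n ∈ R := by
        have := (mem_normalizer_iff.1 (inv_mem hn) x).1 hx
        simpa using this
      have h2 : t * (n⁻¹ * x * n) * t⁻¹ = n⁻¹ * x * n := mem_Ce'.1 (oc_le _ (hR.le h1))
      calc v * x * v⁻¹ = n * (t * (n⁻¹ * x * n) * t⁻¹) * n⁻¹ := by rw [hv]; group
        _ = x := by rw [h2]; group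
    have hvt : v ∈ Ce t := by
      apply Γ.nT Tr hTr.le hTne
      apply centralizer_le_normalizer
      rw [mem_centralizer_iff]
      intro x hx
      exact (mul_inv_eq_iff_eq_mul.1 (hvR x (hTR hx))).symm
    rcases invol_cases B Γ.tV Γ.t1 hvt hv2 hv1 with h | ⟨y, hy, w, hw, hw1, hwt, e⟩
    · rw [mem_Ce]
      rw [hv] at h
      exact (mul_inv_eq_iff_eq_mul.1 h).symm
    · exfalso
      apply hTne
      rw [eq_bot_iff]
      intro z hz
      have h1 := hvR z (hTR hz)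
      have hzT : z ∈ T := hTr.le hz
      rw [e] at h1
      have h2 : w * z * w⁻¹ = z⁻¹ := inv_of_ne Γ B hw hw1 hwt (Γ.TA hzT)
      have h3 : y * w * z * (y * w)⁻¹ = z⁻¹ := by
        calc y * w * z * (y * w)⁻¹ = y * (w * z * w⁻¹) * y⁻¹ := by group
          _ = y * z⁻¹ * y⁻¹ := by rw [h2]
          _ = z⁻¹ := by
            rw [mul_inv_eq_iff_eq_mul]
            exact Γ.Tcen _ (T.inv_mem hzT) y hy
      rw [h1] at h3
      rw [mem_bot]
      exact eq_one_of_sq (odd_mem_U Γ (Γ.AU (Γ.TA hzT))) (by nth_rw 1 [h3]; exact inv_mul_cancel z)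
  · obtain ⟨R, hR⟩ := exists_isSyl r (U t)
    have hrF : ¬ r ∣ Nat.card F := fun h => hrT (Γ.Fpr r hr.out h)
    have hRF : R ⊓ F = ⊥ := by
      rw [eq_bot_iff]
      intro x hx
      obtain ⟨n, hn⟩ := H59.CopAct.isP_pow hR.isPGroup hx.1
      have h4 : orderOf x ∣ r ^ n := orderOf_dvd_of_pow_eq_one hn
      have h5 : orderOf x ∣ Nat.card F := by
        have := orderOf_dvd_natCard (⟨x, hx.2⟩ : F)
        rwa [Subgroup.orderOf_mk] at this
      obtain ⟨m, -, hm⟩ := (Nat.dvd_prime_pow hr.out).1 h4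
      rcases m with _ | m
      · rw [mem_bot]; exact orderOf_eq_one_iff.1 (by simpa using hm)
      · exfalso
        apply hrF
        refine dvd_trans ?_ h5
        rw [hm]
        exact dvd_pow_self r (Nat.succ_ne_zero m)
    have hRne := hR.ne_bot hrU
    obtain ⟨⟨g, hg⟩, hgen⟩ := (Γ.cyc R hR.le hRF).exists_generator
    have hRg : R = zpowers g := by
      apply le_antisymm
      · intro x hx
        obtain ⟨m, hm⟩ := hgen ⟨x, hx⟩
        exact ⟨m, congrArg Subtype.val hm⟩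
      · rw [zpowers_le]; exact hg
    have hg1 : g ≠ 1 := by
      rintro rfl
      apply hRne
      rw [hRg, zpowers_one_eq_bot]
    have hgF : g ∉ F := by
      intro h
      have : g ∈ R ⊓ F := ⟨hg, h⟩
      rw [hRF, mem_bot] at this
      exact hg1 this
    obtain ⟨u, hu, hug⟩ := Γ.conj g (hR.le hg) hgF
    have huT : u * g * u⁻¹ ∉ T := by
      intro h
      apply hgF
      exact (mem_normalizer_iff.1 (Γ.Fn (oc_le _ hu)) g).2 (Γ.TF h)
    have hgood := good0 B Γ hug huT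
    set a := u * g * u⁻¹ with ha
    refine ⟨cj u R, hR.cj_of_mem hu, ?_⟩
    intro n hn
    have haR : a ∈ cj u R := conj_mem_cj.2 hg
    set v := n * t * n⁻¹ with hv
    obtain ⟨hv2, hv1⟩ := conj_invol B Γ.tV Γ.t1 n
    have hRU : cj u R ≤ U t := (hR.cj_of_mem hu).le
    have hva : v * a * v⁻¹ = a := by
      have h1 : n⁻¹ * a * n ∈ cj u R := by
        have := (mem_normalizer_iff.1 (inv_mem hn) a).1 haR
        simpa using this
      have h2 : t * (n⁻¹ * a * n) * t⁻¹ = n⁻¹ * a * n := mem_Ce'.1 (oc_le _ (hRU h1))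
      calc v * a * v⁻¹ = n * (t * (n⁻¹ * a * n) * t⁻¹) * n⁻¹ := by rw [hv]; group
        _ = a := by rw [h2]; group
    have hvt : v ∈ Ce t := by
      apply hgood
      rw [mem_Ce]
      exact (mul_inv_eq_iff_eq_mul.1 hva).symm
    rcases invol_cases B Γ.tV Γ.t1 hvt hv2 hv1 with h | ⟨y, hy, w, hw, hw1, hwt, e⟩
    · rw [mem_Ce]
      rw [hv] at h
      exact (mul_inv_eq_iff_eq_mul.1 h).symm
    · exfalso
      rw [e] at hva
      have h2 : w * a * w⁻¹ = a⁻¹ := inv_of_ne Γ B hw hw1 hwt hug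
      have h3 : y * a⁻¹ * y⁻¹ = a := by
        calc y * a⁻¹ * y⁻¹ = y * (w * a * w⁻¹) * y⁻¹ := by rw [h2]
          _ = y * w * a * (y * w)⁻¹ := by group
          _ = a := hva
      have h4 : y * a * y⁻¹ = a⁻¹ := by
        have : y * a * y⁻¹ = (y * a⁻¹ * y⁻¹)⁻¹ := by group
        rw [this, h3]
      have h5 := comm_of_inverts (odd_mem_U Γ hy) h4
      rw [← mul_inv_eq_iff_eq_mul, h4] at h5
      have ha1 : a = 1 := eq_one_of_sq (odd_mem_U Γ (Γ.AU hug)) (by
        nth_rw 1 [← h5]; exact inv_mul_cancel a)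
      exact huT (ha1 ▸ T.one_mem)

/-- Sylow `r`-subgroups of `U_t` are Sylow in `G` -/
theorem syl_G (B : Base V) (Γ : Gm V A T F t s p) {r : ℕ} [hr : Fact r.Prime]
    (hrU : r ∣ Nat.card (U t)) :
    ∃ R, IsSyl r R (U t) ∧ IsSyl r R ⊤ := by
  obtain ⟨R, hR, hN⟩ := norm_syl B Γ hrU
  refine ⟨R, hR, ?_⟩
  obtain ⟨Q, hQ, hRQ⟩ := exists_isSyl_ge hR.isPGroup (le_top : R ≤ ⊤)
  rcases hRQ.lt_or_eq with hlt | heq
  · exfalso
    have h1 := lt_inf_normalizer_of_isPGroup hQ.isPGroup hlt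
    have h2 : Q ⊓ normalizer (R : Set G) ≤ U t := by
      refine le_U_of_odd B Γ.tV Γ.t1 (inf_le_right.trans hN) ?_
      refine odd_of_isPGroup (p := r) ?_ (hQ.isPGroup.to_le inf_le_left)
      rintro rfl
      exact (Nat.not_even_iff_odd.2 (odd_oc (Ce t))) (even_iff_two_dvd.2 hrU)
    have h3 := hR.eq_of_le (hQ.isPGroup.to_le inf_le_left) h1.le h2
    exact h1.ne h3.symm
  · rw [heq]; exact hQ

theorem cop (B : Base V) (Γ : Gm V A T F t s p) :
    Nat.Coprime (Nat.card (Ivs (⊤ : Subgroup G))) (Nat.card (U t)) := by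
  rw [Nat.coprime_iff_gcd_eq_one]
  by_contra hne
  obtain ⟨r, hr, hd⟩ := Nat.exists_prime_and_dvd hne
  have := Fact.mk hr
  have hd1 := hd.trans (Nat.gcd_dvd_left _ _)
  have hd2 := hd.trans (Nat.gcd_dvd_right _ _)
  obtain ⟨R, hR, hRG⟩ := syl_G B Γ hd2
  apply hRG.not_dvd
  have h1 := card_I B Γ.tV Γ.t1
  have h2 : (Ce t).index = Nat.card (Ivs (⊤ : Subgroup G)) := by
    apply Nat.eq_of_mul_eq_mul_right (Nat.card_pos (α := Ce t))
    rw [h1, mul_comm]
    exact (Ce t).card_mul_index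
  rw [relIndex_top_right]
  refine (h2 ▸ hd1 : r ∣ (Ce t).index).trans ?_
  exact index_dvd_of_le (hR.le.trans (oc_le _))

theorem mem_V_of_comm (B : Base V) {w : G} (hw : w * w = 1) (hc : ∀ v ∈ V, w * v = v * w) : w ∈ V := by
  have : Fact (Nat.Prime 2) := ⟨Nat.prime_two⟩
  by_cases hw1 : w = 1
  · rw [hw1]; exact V.one_mem
  have h2 : IsPGroup 2 (zpowers w) := by
    apply IsPGroup.of_card (n := 1)
    rw [Nat.card_zpowers, pow_one]
    exact orderOf_eq_prime (by rw [pow_two]; exact hw) hw1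
  have hn : zpowers w ≤ normalizer (V : Set G) := by
    rw [zpowers_le]
    apply centralizer_le_normalizer
    rw [mem_centralizer_iff]
    exact fun v hv => (hc v hv).symm
  have h3 : IsPGroup 2 ↥(zpowers w ⊔ V) := IsPGroup.to_sup_of_normal_right' h2 B.isPGroup hn
  have h4 := (B.isSyl (K := zpowers w ⊔ V) le_sup_right).eq_of_le h3 le_sup_right le_rfl
  rw [← h4]
  exact mem_sup_left (mem_zpowers w)

theorem qdvd (B : Base V) (Γ : Gm V A T F t s p) {x : G} {τ : ℕ} {ε : ℤ} (X : CX V x τ ε)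
    (hT : Nat.card T = τ) (hxV : ∀ v ∈ V, v * x = x * v) (hx1 : x ≠ 1) (hxp : x ^ p = 1) :
    (4 * (τ : ℤ) + ε).natAbs ∣ Nat.card (Ivs (⊤ : Subgroup G)) := by
  set q := (4 * (τ : ℤ) + ε).natAbs with hq
  have hqodd : Odd q := by
    rw [hq, Int.natAbs_odd]
    rcases X.eps with h | h <;> rw [h]
    · exact ⟨2 * τ, by ring⟩
    · exact ⟨2 * τ - 1, by ring⟩
  have hcop : q.Coprime (Nat.card (U t)) := by
    rw [Nat.coprime_iff_gcd_eq_one]
    by_contra hne
    obtain ⟨ℓ, hℓ, hd⟩ := Nat.exists_prime_and_dvd hne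
    have := Fact.mk hℓ
    have hd1 := hd.trans (Nat.gcd_dvd_left _ _)
    have hd2 := hd.trans (Nat.gcd_dvd_right _ _)
    have hℓF : ¬ ℓ ∣ Nat.card F := by
      intro h
      have h1 := Γ.Fpr ℓ hℓ h
      rw [hT] at h1
      have h2 : (ℓ : ℤ) ∣ 4 * (τ : ℤ) + ε := by
        rw [← Int.natCast_dvd_natCast, hq, Int.dvd_natAbs] at hd1
        exact hd1
      have h3 : (ℓ : ℤ) ∣ 4 * (τ : ℤ) := Dvd.dvd.mul_left (Int.natCast_dvd_natCast.2 h1) 4
      have h4 : (ℓ : ℤ) ∣ ε := (dvd_add_right h3).1 h2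
      have h5 : (ℓ : ℤ) ∣ 1 := by
        rcases X.eps with h | h
        · rwa [h] at h4
        · rw [h] at h4; exact (dvd_neg.1 h4)
      have h6 : ℓ ∣ 1 := by exact_mod_cast h5
      exact hℓ.one_lt.ne' (Nat.dvd_one.1 h6)
    -- an element of order `ℓ` of `C(x)`
    obtain ⟨⟨g, hgx⟩, hgo⟩ := exists_prime_orderOf_dvd_card' (G := Ce x) ℓ (hd1.trans X.dvd)
    have hgo' : orderOf g = ℓ := by rw [← hgo, Subgroup.orderOf_mk]
    obtain ⟨R, hR, hRG⟩ := syl_G B Γ hd2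
    have hz : IsPGroup ℓ (zpowers g) := by
      apply IsPGroup.of_card (n := 1)
      rw [Nat.card_zpowers, pow_one, hgo']
    obtain ⟨h, -, hh⟩ := hRG.exists_conj_le hz le_top
    have hgR : h * g * h⁻¹ ∈ R := hh (conj_mem_cj.2 (mem_zpowers g))
    have hgF : h * g * h⁻¹ ∉ F := by
      intro hF
      apply hℓF
      have h1 : orderOf (h * g * h⁻¹) = ℓ := by
        rw [← MulAut.conj_apply, MulEquiv.orderOf_eq, hgo']
      have := orderOf_dvd_natCard (⟨_, hF⟩ : F)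
      rwa [Subgroup.orderOf_mk, h1] at this
    obtain ⟨u, hu, hug⟩ := Γ.conj _ (hR.le hgR) hgF
    have hgT : u * (h * g * h⁻¹) * u⁻¹ ∉ T := by
      intro hT'
      apply hgF
      exact (mem_normalizer_iff.1 (Γ.Fn (oc_le _ hu)) _).2 (Γ.TF hT')
    set n := u * h with hn
    have hgn : u * (h * g * h⁻¹) * u⁻¹ = n * g * n⁻¹ := by rw [hn]; group
    rw [hgn] at hug hgT
    have hgood := good0 B Γ hug hgT
    set x' := n * x * n⁻¹ with hx'
    have hxg : x' * (n * g * n⁻¹) = (n * g * n⁻¹) * x' := by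
      have h1 : x * g = g * x := mem_Ce.1 hgx
      calc x' * (n * g * n⁻¹) = n * (x * g) * n⁻¹ := by rw [hx']; group
        _ = (n * g * n⁻¹) * x' := by rw [h1, hx']; group
    have hx't : x' ∈ Ce t := hgood (mem_Ce.2 hxg.symm)
    have hx'p : x' ^ p = 1 := by
      rw [hx', conj_pow, hxp]; group
    have hx'1 : x' ≠ 1 := by
      intro h0
      apply hx1
      have := congrArg (fun y => n⁻¹ * y * n) h0
      simpa [hx', mul_assoc] using this
    have hx'o : Odd (orderOf x') := by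
      have h1 : orderOf x' ∣ p := orderOf_dvd_of_pow_eq_one hx'p
      exact Odd.of_dvd_nat (Γ.pp.odd_of_ne_two Γ.p2) h1
    have hx'A : x' ∈ A := mem_A_of_comm Γ B hug hgT hx't hx'o hxg
    have hx'T : x' ∈ T := mem_T_of_p Γ hx'A (n := 1) (by rw [pow_one]; exact hx'p)
    have hCe : Ce x' ≤ Ce t := by
      have h1 := Γ.nT (zpowers x') ((zpowers_le).2 hx'T) (by rwa [Ne, zpowers_eq_bot])
      exact (H24.GWD.Ce_le_norm_zpowers x').trans h1
    -- transport back to `x`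
    set t' := n⁻¹ * t * n with ht'
    have hCx : Ce x ≤ Ce t' := by
      intro y hy
      have h1 : n * y * n⁻¹ ∈ Ce x' := by
        rw [mem_Ce] at hy ⊢
        calc x' * (n * y * n⁻¹) = n * (x * y) * n⁻¹ := by rw [hx']; group
          _ = n * y * n⁻¹ * x' := by rw [hy, hx']; group
      have h2 := mem_Ce.1 (hCe h1)
      rw [mem_Ce]
      calc t' * y = n⁻¹ * (t * (n * y * n⁻¹)) * n := by rw [ht']; group
        _ = y * t' := by rw [h2, ht']; group
    have ht'2 : t' * t' = 1 := by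
      rw [ht', show n⁻¹ * t * n * (n⁻¹ * t * n) = n⁻¹ * (t * t) * n by group, tsq B Γ]; group
    have ht'1 : t' ≠ 1 := by
      intro h0
      apply Γ.t1
      have := congrArg (fun y => n * y * n⁻¹) h0
      simpa [ht', mul_assoc] using this
    have hVx : V ≤ Ce x := fun v hv => mem_Ce.2 (hxV v hv).symm
    have ht'V : t' ∈ V := mem_V_of_comm B ht'2 fun v hv => mem_Ce.1 (hCx (hVx hv))
    obtain ⟨s', hs', hs'1, hs't⟩ : ∃ s' ∈ V, s' ≠ 1 ∧ s' ≠ t' := by
      by_cases h0 : t = t'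
      · exact ⟨s, Γ.sV, Γ.s1, fun h => Γ.st (h.trans h0.symm)⟩
      · exact ⟨t, Γ.tV, Γ.t1, h0⟩
    obtain ⟨g', hg', e⟩ := X.conj t' ⟨hVx ht'V, ht'2, ht'1⟩ s' ⟨hVx hs', B.sq s' hs', hs'1⟩
    have h1 := mem_Ce.1 (hCx hg')
    apply hs't
    rw [← e, mul_inv_eq_iff_eq_mul]
    exact h1.symm
  have h1 : q ∣ Nat.card (Ivs (⊤ : Subgroup G)) * (4 * Nat.card (U t)) := by
    have h2 : Nat.card (Ce t) ∣ 4 * Nat.card (U t) := by
      have h3 := H28.RelHall.card_sup_dvd (H := V) (N := U t) ((V_le_Ce B Γ.tV).trans (le_norm_oc _))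
      rw [sup_comm, ← Ce_eq B Γ.tV Γ.t1, B.card] at h3
      exact h3
    refine (X.dvd.trans (card_subgroup_dvd_card (Ce x))).trans ?_
    rw [← card_I B Γ.tV Γ.t1]
    exact Nat.mul_dvd_mul_left _ h2
  have hc4 : q.Coprime (4 * Nat.card (U t)) := by
    refine Nat.Coprime.mul_right ?_ hcop
    rw [show (4 : ℕ) = 2 ^ 2 by norm_num]
    exact Nat.Coprime.pow_right 2 (Nat.coprime_two_right.2 hqodd)
  exact hc4.dvd_of_dvd_mul_right h1

end H74.GW
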