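import Cfsg.Agent.Lib.H74.Perf
import Cfsg.Agent.Lib.H40.AutAlt
import Cfsg.Agent.Lib.H40.SL2Nine
import Cfsg.Agent.Lib.H45.SL2Basic
set_option autoImplicit false
open Cfsg

namespace H74.NonSolv
open H74.FrobC H74.FC H74.Zass H74.Perf Equiv

theorem sl5_perfect : commutator SL5 = ⊤ := by
  apply H40.SL2Nine.commutator_top
  rw [ZMod.card]; norm_num

theorem perfect_of_equiv {L : Type*} [Group L] (e : L ≃* SL5) : commutator L = ⊤ := by
  have h2 : (commutator SL5).map e.symm.toMonoidHom = commutator L := by
    rw [commutator_def, commutator_def, Subgroup.map_commutator,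
      Subgroup.map_top_of_surjective _ e.symm.surjective]
  rw [← h2, sl5_perfect, Subgroup.map_top_of_surjective _ e.symm.surjective]

/-- the action of a group on a normal `SL(2,5)` -/
theorem exists_pi {G : Type*} [Group G] (L : Subgroup G) [L.Normal] (e : L ≃* SL5) :
    ∃ π : G →* Perm (Fin 5), π.ker = Subgroup.centralizer (L : Set G) ∧ L.map π = alternatingGroup (Fin 5) := by
  classical
  have hLf : Finite L := Finite.of_equiv _ e.symm.toEquiv
  obtain ⟨f⟩ := H6.SmallIsoA.psl2_five (F := ZMod 5) (ZMod.card 5)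
  let a : L →* alternatingGroup (Fin 5) :=
    f.toMonoidHom.comp ((QuotientGroup.mk' (Subgroup.center SL5)).comp e.toMonoidHom)
  have ha : Function.Surjective a := f.surjective.comp ((QuotientGroup.mk'_surjective _).comp e.surjective)
  have hak : ∀ l : L, a l = 1 ↔ ∀ l' : L, l' * l = l * l' := by
    intro l
    have h1 : a l = f (QuotientGroup.mk' (Subgroup.center SL5) (e l)) := rfl
    rw [h1, map_eq_one_iff f f.injective, QuotientGroup.mk'_apply, QuotientGroup.eq_one_iff, Subgroup.mem_center_iff]
    constructor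
    · intro h l'
      apply e.injective
      rw [map_mul, map_mul]; exact h (e l')
    · intro h y
      obtain ⟨l', rfl⟩ := e.surjective y
      rw [← map_mul, ← map_mul, h]
  let s := Function.surjInv ha
  have hs : ∀ q, a (s q) = q := Function.surjInv_eq ha
  obtain ⟨T, hT⟩ : ∃ T : G → alternatingGroup (Fin 5) → alternatingGroup (Fin 5),
      ∀ g l, T g (a l) = a (MulAut.conjNormal g l) := by
    refine ⟨fun g q => a (MulAut.conjNormal g (s q)), ?_⟩
    intro g l
    have h1 : a (l⁻¹ * s (a l)) = 1 := by rw [map_mul, map_inv, hs, inv_mul_cancel]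
    have h2 : a (MulAut.conjNormal g (l⁻¹ * s (a l))) = 1 := by
      rw [hak] at h1 ⊢
      intro l'
      have h3 := h1 ((MulAut.conjNormal g)⁻¹ l')
      have h4 := congrArg (MulAut.conjNormal g : MulAut L) h3
      rw [map_mul (MulAut.conjNormal g : MulAut L) _ (l⁻¹ * s (a l)), map_mul (MulAut.conjNormal g : MulAut L) (l⁻¹ * s (a l))] at h4
      have h5 : (MulAut.conjNormal g : MulAut L) ((MulAut.conjNormal g)⁻¹ l') = l' := MulAut.apply_inv_self _ _ _
      rw [h5] at h4
      exact h4
    rw [map_mul, map_mul, map_inv, map_inv, inv_mul_eq_one] at h2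
    exact h2.symm
  let c : G →* MulAut (alternatingGroup (Fin 5)) :=
    { toFun := fun g =>
        { toFun := T g
          invFun := T g⁻¹
          left_inv := by
            intro q
            obtain ⟨l, rfl⟩ := ha q
            rw [hT, hT, ← MulAut.mul_apply, ← map_mul, inv_mul_cancel, map_one, MulAut.one_apply]
          right_inv := by
            intro q
            obtain ⟨l, rfl⟩ := ha q
            rw [hT, hT, ← MulAut.mul_apply, ← map_mul, mul_inv_cancel, map_one, MulAut.one_apply]
          map_mul' := by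
            intro q q'
            obtain ⟨l, rfl⟩ := ha q
            obtain ⟨l', rfl⟩ := ha q'
            rw [← map_mul, hT, hT, hT, ← map_mul, ← map_mul] }
      map_one' := by
        apply MulEquiv.ext
        intro q
        obtain ⟨l, rfl⟩ := ha q
        change T 1 (a l) = a l
        rw [hT, map_one, MulAut.one_apply]
      map_mul' := by
        intro g g'
        apply MulEquiv.ext
        intro q
        obtain ⟨l, rfl⟩ := ha q
        change T (g * g') (a l) = T g (T g' (a l))
        rw [hT, hT, hT, map_mul, MulAut.mul_apply] }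
  have hc : ∀ g l, c g (a l) = a (MulAut.conjNormal g l) := hT
  let E : Perm (Fin 5) ≃* MulAut (alternatingGroup (Fin 5)) :=
    MulEquiv.ofBijective MulAut.conjNormal ⟨H40.AutAlt.injective_conjNormal (by simp), H40.AutAlt.surjective_conjNormal (by simp) (by simp)⟩
  let π : G →* Perm (Fin 5) := E.symm.toMonoidHom.comp c
  have hπ : ∀ g, E (π g) = c g := fun g => E.apply_symm_apply _
  have hπL : ∀ l : L, π l = (a l : Perm (Fin 5)) := by
    intro l
    apply E.injective
    rw [hπ]
    apply MulEquiv.ext
    intro q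
    obtain ⟨l', rfl⟩ := ha q
    rw [hc]
    apply Subtype.ext
    have h1 : ((E (a l : Perm (Fin 5)) (a l') : alternatingGroup (Fin 5)) : Perm (Fin 5)) =
      (a l : Perm (Fin 5)) * (a l' : Perm (Fin 5)) * (a l : Perm (Fin 5))⁻¹ := MulAut.conjNormal_apply _ _
    rw [h1]
    have h2 : (MulAut.conjNormal (l : G) l' : L) = l * l' * l⁻¹ := Subtype.ext (MulAut.conjNormal_apply _ _)
    rw [h2, map_mul, map_mul, map_inv]
    rfl
  refine ⟨π, ?_, ?_⟩
  · ext g
    rw [MonoidHom.mem_ker, Subgroup.mem_centralizer_iff]
    constructor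
    · intro hg
      have h1 : c g = 1 := by rw [← hπ, hg, map_one]
      have h2 : ∀ l : L, a ((MulAut.conjNormal g l) * l⁻¹) = 1 := by
        intro l
        rw [map_mul, ← hc, h1, MulAut.one_apply, map_inv, mul_inv_cancel]
      have hcen : ∀ l : L, (MulAut.conjNormal g l) * l⁻¹ ∈ Subgroup.center L := by
        intro l
        rw [Subgroup.mem_center_iff]
        exact (hak _).mp (h2 l)
      let d : L →* Subgroup.center L :=
        { toFun := fun l => ⟨(MulAut.conjNormal g l) * l⁻¹, hcen l⟩
          map_one' := Subtype.ext (by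
            change (MulAut.conjNormal g (1 : L)) * (1 : L)⁻¹ = 1
            rw [map_one, one_mul, inv_one])
          map_mul' := by
            intro l l'
            apply Subtype.ext
            change (MulAut.conjNormal g (l * l')) * (l * l')⁻¹ =
              (MulAut.conjNormal g l * l⁻¹) * (MulAut.conjNormal g l' * l'⁻¹)
            have h3 := Subgroup.mem_center_iff.mp (hcen l') l⁻¹
            rw [map_mul, mul_inv_rev, mul_assoc (MulAut.conjNormal g l) l⁻¹, h3]
            group }
      have h4 : Group.IsSolvable (Subgroup.center L) :=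
        Group.isSolvable_of_comm (fun x y => Subtype.ext (Subgroup.mem_center_iff.mp y.2 x))
      intro l hl
      have h5 := hom_trivial (perfect_of_equiv e) d h4 ⟨l, hl⟩
      have h6 : (MulAut.conjNormal g (⟨l, hl⟩ : L)) * (⟨l, hl⟩ : L)⁻¹ = 1 := congrArg Subtype.val h5
      rw [mul_inv_eq_one] at h6
      have h7 := congrArg Subtype.val h6
      rw [MulAut.conjNormal_apply] at h7
      change g * l * g⁻¹ = l at h7
      rw [mul_inv_eq_iff_eq_mul] at h7
      exact h7.symm
    · intro hg
      have h1 : c g = 1 := by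
        apply MulEquiv.ext
        intro q
        obtain ⟨l, rfl⟩ := ha q
        rw [hc, MulAut.one_apply]
        congr 1
        apply Subtype.ext
        rw [MulAut.conjNormal_apply, ← hg l l.2, mul_inv_cancel_right]
      apply E.injective
      rw [hπ, h1, map_one]
  · ext σ
    constructor
    · rintro ⟨l, hl, rfl⟩
      have := hπL ⟨l, hl⟩
      rw [this]; exact (a ⟨l, hl⟩).2
    · intro hσ
      obtain ⟨l, hl⟩ := ha ⟨σ, hσ⟩
      refine ⟨l, l.2, ?_⟩
      rw [hπL, hl]


/-- elements of order 2 (central), 3, 4, 5 -/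
theorem mk_pow (a b c d : ZMod 5) (h : a * d - b * c = 1) (n : ℕ) : (mk a b c d h ^ n).1 = (!![a, b; c, d] : Matrix (Fin 2) (Fin 2) (ZMod 5)) ^ n := by
  rw [Matrix.SpecialLinearGroup.coe_pow]; rfl

theorem exists_order (n : ℕ) (hn : n = 3 ∨ n = 4 ∨ n = 5) : ∃ x : SL5, orderOf x = n := by
  rcases hn with rfl | rfl | rfl
  · exact ⟨mk 0 1 4 4 (by decide), orderOf_mk _ _ _ _ _ (by decide)⟩
  · refine ⟨mk 0 1 4 0 (by decide), ?_⟩
    have h2 : (2 : ℕ) ^ 2 = 4 := by norm_num
    rw [← h2]
    have : Fact (Nat.Prime 2) := ⟨Nat.prime_two⟩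
    apply orderOf_eq_prime_pow
    · intro h
      have := congrFun (congrFun (congrArg Subtype.val h) 0) 0
      rw [mk_pow] at this
      revert this; decide +kernel
    · apply Subtype.ext
      rw [mk_pow]
      decide +kernel
  · refine ⟨mk 1 1 0 1 (by decide), ?_⟩
    apply orderOf_eq_prime
    · apply Subtype.ext
      rw [mk_pow]
      decide +kernel
    · intro h
      have := congrFun (congrFun (congrArg Subtype.val h) 0) 1
      exact absurd this (by decide)

theorem centralizer_order {G : Type*} [Group G] [Finite G] (h : IsFC G) (L : Subgroup G) (e : L ≃* SL5) {y : G}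
    (hy : y ∈ Subgroup.centralizer (L : Set G)) {n : ℕ} (hn : n = 3 ∨ n = 4 ∨ n = 5) : orderOf y ≠ n := by
  intro ho
  obtain ⟨x, hx⟩ := exists_order n hn
  have hx' : orderOf ((e.symm x : L) : G) = n := by
    rw [Subgroup.orderOf_coe, MulEquiv.orderOf_eq, hx]
  have hyz : y ∈ Subgroup.zpowers ((e.symm x : L) : G) := by
    apply mem_zpowers_of_comm h _ (by rw [ho, hx'])
    exact ((Subgroup.mem_centralizer_iff.mp hy) _ (e.symm x).2).symm
  have hyL : y ∈ L := by
    have h1 : Subgroup.zpowers ((e.symm x : L) : G) ≤ L := by rw [Subgroup.zpowers_le]; exact (e.symm x).2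
    exact h1 hyz
  have hc : e ⟨y, hyL⟩ ∈ Subgroup.center SL5 := by
    rw [Subgroup.mem_center_iff]
    intro g
    obtain ⟨l, rfl⟩ := e.surjective g
    rw [← map_mul, ← map_mul]
    congr 1
    apply Subtype.ext
    exact (Subgroup.mem_centralizer_iff.mp hy) l l.2
  have h2 : e ⟨y, hyL⟩ ^ 2 = 1 := by
    rcases (H45.SL2.mem_center_iff _).mp hc with h1 | h1
    · rw [h1, one_pow]
    · rw [h1, neg_one_sq]
  have h3 : (⟨y, hyL⟩ : L) ^ 2 = 1 := by
    apply e.injective
    rw [map_pow, h2, map_one]
  have h4 : y ^ 2 = 1 := congrArg Subtype.val h3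
  have h5 := Nat.le_of_dvd (by norm_num) (orderOf_dvd_of_pow_eq_one h4)
  omega

end H74.NonSolv
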