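import Cfsg.Agent.Lib.H74.NonSolv
set_option autoImplicit false
open Cfsg

namespace H74.NonSolv2
open H74.FrobC H74.FC H74.Zass H74.Perf H74.NonSolv Equiv

theorem zgroup_of_no_four {G : Type*} [Group G] [Finite G] (h : IsFC G) (C : Subgroup G)
    (h4 : ∀ y ∈ C, orderOf y ≠ 4) : IsZGroup C := by
  constructor
  intro p hp P
  have : Fact p.Prime := ⟨hp⟩
  have hP : IsPGroup p ((P : Subgroup C).map C.subtype) := P.isPGroup'.map _
  rcases pgroup h p _ hP with h1 | ⟨-, n, ⟨f⟩⟩
  · have e := (P : Subgroup C).equivMapOfInjective C.subtype C.subtype_injective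
    exact isCyclic_of_surjective e.symm e.symm.surjective
  · exfalso
    let x := f.symm (QuaternionGroup.xa 0)
    have hx : orderOf x = 4 := by
      rw [MulEquiv.orderOf_eq]; exact QuaternionGroup.orderOf_xa 0
    have hxC : (x : G) ∈ C := by
      obtain ⟨y, -, hy⟩ := x.2
      rw [← hy]; exact y.2
    exact h4 _ hxC (by rw [Subgroup.orderOf_coe]; exact hx)

/-- structure of the Frobenius complements that contain `SL(2,5)` as a normal subgroup -/
theorem main {G : Type*} [Group G] [Finite G] (h : IsFC G) (L : Subgroup G) [L.Normal] (e : L ≃* SL5) :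
    ∃ M : Subgroup G, L ⊔ M = L ⊔ Subgroup.centralizer (L : Set G) ∧ L ⊓ M = ⊥ ∧ M ≤ Subgroup.centralizer (L : Set G) ∧
      IsZGroup M ∧ (Nat.card M).Coprime 30 := by
  set C := Subgroup.centralizer (L : Set G) with hC
  have hord : ∀ y ∈ C, ∀ n, (n = 3 ∨ n = 4 ∨ n = 5) → orderOf y ≠ n := fun y hy n hn =>
    centralizer_order h L e hy hn
  have hZ : IsZGroup C := zgroup_of_no_four h C (fun y hy => hord y hy 4 (by norm_num))
  have hp2 : Fact (Nat.Prime 2) := ⟨Nat.prime_two⟩
  have hp3 : Fact (Nat.Prime 3) := ⟨Nat.prime_three⟩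
  have hc3 : ¬ 3 ∣ Nat.card C := by
    intro hd
    obtain ⟨x, hx⟩ := exists_prime_orderOf_dvd_card' (G := C) 3 hd
    exact hord x x.2 3 (by norm_num) (by rw [Subgroup.orderOf_coe]; exact hx)
  have hc5 : ¬ 5 ∣ Nat.card C := by
    intro hd
    obtain ⟨x, hx⟩ := exists_prime_orderOf_dvd_card' (G := C) 5 hd
    exact hord x x.2 5 (by norm_num) (by rw [Subgroup.orderOf_coe]; exact hx)
  -- the central involution
  obtain ⟨z, hz2⟩ : ∃ z : L, orderOf z = 2 := by
    refine ⟨e.symm (-1), ?_⟩
    rw [MulEquiv.orderOf_eq]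
    apply orderOf_eq_prime
    · exact neg_one_sq
    · intro h1
      have := congrFun (congrFun (congrArg Subtype.val h1) 0) 0
      exact absurd this (by decide)
  have hz2' : orderOf (z : G) = 2 := by rw [Subgroup.orderOf_coe]; exact hz2
  have hzc : ∀ g : G, g * z = z * g := fun g => involution_central h hz2' g
  have hzC : (z : G) ∈ C := by
    rw [hC, Subgroup.mem_centralizer_iff]
    intro l _
    exact hzc l
  obtain ⟨zc, hzcz⟩ : ∃ zc : C, (zc : G) = z := ⟨⟨z, hzC⟩, rfl⟩
  have hzc2 : orderOf zc = 2 := by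
    rw [← Subgroup.orderOf_coe, hzcz]; exact hz2'
  let Z : Subgroup C := Subgroup.zpowers zc
  have hZcard : Nat.card Z = 2 := by rw [Nat.card_zpowers, hzc2]
  have hZn : Z.Normal := by
    constructor
    intro a ha g
    obtain ⟨k, rfl⟩ := Subgroup.mem_zpowers_iff.mp ha
    have hcomm : Commute g zc := Subtype.ext (by
      change (g : G) * (zc : G) = (zc : G) * (g : G)
      rw [hzcz]; exact hzc g)
    rw [(hcomm.zpow_right k).eq, mul_inv_cancel_right]
    exact Subgroup.zpow_mem_zpowers _ _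
  have hc4 : ¬ 4 ∣ Nat.card C := by
    intro hd
    have h1 : (2 : ℕ) ^ 2 ∣ Nat.card C := by simpa using hd
    obtain ⟨K, hK⟩ := Sylow.exists_subgroup_card_pow_prime 2 h1
    have hKp : IsPGroup 2 K := IsPGroup.of_card hK
    obtain ⟨T, hT⟩ := hKp.exists_le_sylow
    have hTc : IsCyclic T := hZ.isZGroup 2 Nat.prime_two T
    have hKc : IsCyclic K := by
      have : IsCyclic (K.subgroupOf T) := inferInstance
      exact isCyclic_of_surjective (Subgroup.subgroupOfEquivOfLe hT) (Subgroup.subgroupOfEquivOfLe hT).surjective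
    obtain ⟨x, hx⟩ := hKc.exists_ofOrder_eq_natCard
    rw [hK] at hx
    apply hord ((x : C) : G) (x : C).2 4 (by norm_num)
    rw [Subgroup.orderOf_coe, Subgroup.orderOf_coe, hx]; norm_num
  have hidx : Z.index * 2 = Nat.card C := by rw [← hZcard]; exact Z.index_mul_card
  have hodd : ¬ 2 ∣ Z.index := by
    intro hd
    apply hc4
    rw [← hidx]
    exact mul_dvd_mul hd (dvd_refl 2)
  have hcop : Nat.Coprime (Nat.card Z) Z.index := by
    rw [hZcard]
    exact (Nat.Prime.coprime_iff_not_dvd Nat.prime_two).mpr hodd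
  obtain ⟨M', hM'⟩ := Subgroup.exists_left_complement'_of_coprime hcop
  have hM'c : Nat.card M' = Z.index := hM'.index_eq_card.symm
  refine ⟨M'.map C.subtype, ?_, ?_, ?_, ?_, ?_⟩
  · apply le_antisymm
    · apply sup_le_sup_left
      exact Subgroup.map_subtype_le _
    · apply sup_le le_sup_left
      intro y hy
      have h1 : (⟨y, hy⟩ : C) ∈ M' ⊔ Z := by rw [hM'.sup_eq_top]; exact Subgroup.mem_top _
      obtain ⟨a, ha, b, hb, hab⟩ := Subgroup.mem_sup_of_normal_right.mp h1
      have h2 : y = (a : G) * (b : G) := (congrArg Subtype.val hab).symm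
      rw [h2]
      have h3 : (a : G) ∈ M'.map C.subtype := ⟨a, ha, rfl⟩
      apply Subgroup.mul_mem _ (Subgroup.mem_sup_right h3)
      apply Subgroup.mem_sup_left
      obtain ⟨k, rfl⟩ := Subgroup.mem_zpowers_iff.mp hb
      change (zc : G) ^ k ∈ L
      rw [hzcz]
      exact Subgroup.zpow_mem _ z.2 k
  · rw [eq_bot_iff]
    rintro _ ⟨hx1, y, hy, rfl⟩
    -- y ∈ M' ∩ L, central in L
    have hyC : ((y : C) : G) ∈ C := y.2
    change ((y : C) : G) ∈ L at hx1
    have hc : e ⟨y, hx1⟩ ∈ Subgroup.center SL5 := by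
      rw [Subgroup.mem_center_iff]
      intro g
      obtain ⟨l, rfl⟩ := e.surjective g
      rw [← map_mul, ← map_mul]
      congr 1
      apply Subtype.ext
      exact (Subgroup.mem_centralizer_iff.mp hyC) l l.2
    have h2 : e ⟨y, hx1⟩ ^ 2 = 1 := by
      rcases (H45.SL2.mem_center_iff _).mp hc with h1 | h1
      · rw [h1, one_pow]
      · rw [h1, neg_one_sq]
    have h3 : (⟨y, hx1⟩ : L) ^ 2 = 1 := by
      apply e.injective
      rw [map_pow, h2, map_one]
    have h4 : (y : G) ^ 2 = 1 := congrArg Subtype.val h3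
    have h5 : (⟨y, hy⟩ : M') ^ 2 = 1 := Subtype.ext (Subtype.ext h4)
    have h6 := orderOf_dvd_of_pow_eq_one h5
    have h7 := orderOf_dvd_natCard (⟨y, hy⟩ : M')
    rw [hM'c] at h7
    have h8 : orderOf (⟨y, hy⟩ : M') = 1 := by
      rcases (Nat.dvd_prime Nat.prime_two).mp h6 with h8 | h8
      · exact h8
      · exact absurd (h8 ▸ h7) hodd
    rw [orderOf_eq_one_iff] at h8
    rw [Subgroup.mem_bot]
    exact congrArg (fun t : M' => ((t : C) : G)) h8
  · exact Subgroup.map_subtype_le _
  · apply zgroup_of_no_four h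
    intro y hy
    exact hord y (Subgroup.map_subtype_le _ hy) 4 (by norm_num)
  · rw [Subgroup.card_map_of_injective C.subtype_injective, hM'c]
    have h1 : (30 : ℕ) = 2 * 3 * 5 := by norm_num
    rw [h1]
    have hdvd : Z.index ∣ Nat.card C := Subgroup.index_dvd_card Z
    refine Nat.Coprime.mul_right (Nat.Coprime.mul_right ?_ ?_) ?_
    · exact ((Nat.Prime.coprime_iff_not_dvd Nat.prime_two).mpr hodd).symm
    · exact ((Nat.Prime.coprime_iff_not_dvd Nat.prime_three).mpr (fun h => hc3 (h.trans hdvd))).symm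
    · exact ((Nat.Prime.coprime_iff_not_dvd Nat.prime_five).mpr (fun h => hc5 (h.trans hdvd))).symm

end H74.NonSolv2
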