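import Cfsg.Agent.Lib.H74.NonSolv2
set_option autoImplicit false
open Cfsg

namespace H74.NonSolv3
open H74.FrobC H74.FC H74.Zass H74.Perf H74.NonSolv H74.NonSolv2 Equiv

theorem index_sup {G : Type*} [Group G] (L : Subgroup G) [L.Normal] (e : L ≃* SL5) :
    (L ⊔ Subgroup.centralizer (L : Set G)).index ∣ 2 := by
  obtain ⟨π, hk, hm⟩ := exists_pi L e
  rw [← hk, ← Subgroup.comap_map_eq, hm, Subgroup.index_comap]
  have h1 : (alternatingGroup (Fin 5)).index = 2 := alternatingGroup.index_eq_two
  have h2 := (alternatingGroup (Fin 5)).relIndex_dvd_index_of_normal π.range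
  rwa [h1] at h2

/-- a perfect Frobenius complement with a normal `SL(2,5)` is `SL(2,5)` -/
theorem eq_top_of_perfect {G : Type*} [Group G] [Finite G] (h : IsFC G) (hperf : commutator G = ⊤) (L : Subgroup G) [L.Normal]
    (e : L ≃* SL5) : L = ⊤ := by
  obtain ⟨π, hk, hm⟩ := exists_pi L e
  have hsup : L ⊔ Subgroup.centralizer (L : Set G) = ⊤ := by
    rw [← hk, ← Subgroup.comap_map_eq, hm, eq_top_iff]
    intro g _
    have h1 := hom_trivial hperf ((Perm.sign : Perm (Fin 5) →* ℤˣ).comp π) (Group.isSolvable_of_comm mul_comm) g
    exact h1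
  have hZ : IsZGroup (Subgroup.centralizer (L : Set G)) :=
    zgroup_of_no_four h _ (fun y hy => centralizer_order h L e hy (by norm_num))
  have hCs : Group.IsSolvable (Subgroup.centralizer (L : Set G)) := inferInstance
  let f : Subgroup.centralizer (L : Set G) →* G ⧸ L := (QuotientGroup.mk' L).comp (Subgroup.subtype _)
  have hf : Function.Surjective f := by
    intro q
    obtain ⟨g, rfl⟩ := QuotientGroup.mk'_surjective L q
    have h1 : g ∈ L ⊔ Subgroup.centralizer (L : Set G) := by rw [hsup]; exact Subgroup.mem_top _
    obtain ⟨l, hl, c, hc, rfl⟩ := Subgroup.mem_sup_of_normal_left.mp h1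
    refine ⟨⟨c, hc⟩, ?_⟩
    change QuotientGroup.mk' L c = QuotientGroup.mk' L (l * c)
    rw [map_mul]
    have : QuotientGroup.mk' L l = 1 := (QuotientGroup.eq_one_iff l).mpr hl
    rw [this, one_mul]
  have hs : Group.IsSolvable (G ⧸ L) := Group.isSolvable_of_surjective hf
  rw [eq_top_iff]
  intro g _
  have := hom_trivial hperf (QuotientGroup.mk' L) hs g
  exact (QuotientGroup.eq_one_iff g).mp this

theorem closure_normal (G : Type*) [Group G] (n : ℕ) : (Subgroup.closure {x : G | orderOf x = n}).Normal := by
  constructor
  intro a ha g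
  have h1 : (Subgroup.closure {x : G | orderOf x = n}).map (MulAut.conj g).toMonoidHom ≤
      Subgroup.closure {x : G | orderOf x = n} := by
    rw [MonoidHom.map_closure, Subgroup.closure_le]
    rintro _ ⟨x, hx, rfl⟩
    apply Subgroup.subset_closure
    change orderOf (MulAut.conj g x) = n
    rw [MulEquiv.orderOf_eq]; exact hx
  exact h1 ⟨a, ha, rfl⟩

theorem perfect_equiv {A B : Type*} [Group A] [Group B] (e : A ≃* B) (h : commutator A = ⊤) : commutator B = ⊤ := by
  have h2 : (commutator A).map e.toMonoidHom = commutator B := by
    rw [commutator_def, commutator_def, Subgroup.map_commutator,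
      Subgroup.map_top_of_surjective _ e.surjective]
  rw [← h2, h, Subgroup.map_top_of_surjective _ e.surjective]

/-- a nonsolvable finite group has a nontrivial perfect subgroup -/
theorem exists_perfect (n : ℕ) : ∀ (G : Type*) [Group G] [Finite G], Nat.card G = n → ¬ Group.IsSolvable G →
    ∃ P : Subgroup G, P ≠ ⊥ ∧ commutator P = ⊤ := by
  induction n using Nat.strong_induction_on with
  | _ n ih =>
    intro G _ _ hn hG
    by_cases hc : commutator G = ⊤
    · refine ⟨⊤, ?_, ?_⟩
      · intro hbot
        apply hG
        have : Subsingleton G := by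
          constructor
          intro a b
          have h1 : a ∈ (⊥ : Subgroup G) := by rw [← hbot]; exact Subgroup.mem_top _
          have h2 : b ∈ (⊥ : Subgroup G) := by rw [← hbot]; exact Subgroup.mem_top _
          rw [Subgroup.mem_bot] at h1 h2
          rw [h1, h2]
        infer_instance
      · exact perfect_equiv Subgroup.topEquiv.symm hc
    · have hlt : Nat.card (commutator G) < n := by
        rw [← hn]
        exact lt_of_le_of_ne (Subgroup.card_le_card_group _) (fun h => hc (Subgroup.eq_top_of_card_eq _ h))
      have hns : ¬ Group.IsSolvable (commutator G) := by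
        intro hs
        apply hG
        rw [Group.isSolvable_iff_subgroup_quotient (commutator G)]
        refine ⟨hs, ?_⟩
        exact (inferInstance : Group.IsSolvable (Abelianization G))
      obtain ⟨P, hP, hPc⟩ := ih _ hlt (commutator G) rfl hns
      refine ⟨P.map (commutator G).subtype, ?_, ?_⟩
      · intro h
        apply hP
        rwa [Subgroup.map_eq_bot_iff_of_injective _ (commutator G).subtype_injective] at h
      · exact perfect_equiv (P.equivMapOfInjective (commutator G).subtype (commutator G).subtype_injective) hPc

/-- the elements of order three in a nonsolvable Frobenius complement generate `SL(2,5)` -/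
theorem closure_iso {G : Type*} [Group G] [Finite G] (h : IsFC G) (hns : ¬ Group.IsSolvable G) :
    Nonempty (Subgroup.closure {x : G | orderOf x = 3} ≃* SL5) := by
  rcases small_or_sl5 h with h1 | h1
  · exfalso
    obtain ⟨P, hP, hPc⟩ := exists_perfect _ G rfl hns
    apply not_small (isFC_subgroup h P hP) hPc
    have h2 : (P.subtype '' {x : P | orderOf x = 3}) ⊆ {x : G | orderOf x = 3} := by
      rintro _ ⟨x, hx, rfl⟩
      change orderOf (x : G) = 3
      rw [Subgroup.orderOf_coe]; exact hx
    have h3 := Set.ncard_le_ncard h2 (Set.toFinite _)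
    rw [Set.ncard_image_of_injective _ P.subtype_injective] at h3
    omega
  · exact h1

end H74.NonSolv3
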